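import Cfsg.Agent.H525.Ppd.UBound
import Cfsg.Agent.H929.UThreeMain
import Cfsg.Agent.H905.MdL
import Cfsg.Agent.H2.Rb.Basic
import Cfsg.Agent.S0280

/-!
# S3691 (S), small primes: `PSU(3, q₀)` in the defining characteristic (from helper525's file for S5948, adapted by helper2)

* **`su3_bound`** : an absolutely irreducible representation of `SU(3, q₀)` of degree at least two over `F`,
  `|F| ^ N = q₀ ^ 2`, `N ≥ 2`, has degree at least `6`, and at least `6 N` if `N ≥ 3`;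
* `core_bound` : the same for a core of type `PSU(3, q₀)`;
* **`not_psu3`** : the row.
-/

set_option autoImplicit false
set_option linter.unusedSectionVars false
set_option linter.style.haveILetI false

namespace Cfsg.Agent.H2.Rb.C525

open Cfsg.Agent.H525.Ppd

open Cfsg Cfsg.Geo Cfsg.Agent.LieClassical.HermSiegel Cfsg.Agent.LieClassical.HermBasic Matrix Cfsg.Agent.H906
  Cfsg.Agent.H915.LD Cfsg.Agent.H905.Md Cfsg.Agent.H929.U3 Cfsg.Agent.H2.Rb.C100

universe u

/-- the order of the field of the frame -/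
theorem exists_exp {E : Type*} [Field E] [Fintype E] {p : ℕ} [hp : Fact p.Prime] [CharP E p] {q : ℕ}
    (hE : Fintype.card E = q ^ 2) : ∃ f, q = p ^ f := by
  obtain ⟨m, -, hm⟩ := FiniteField.card E p
  rw [hE] at hm
  exact (Nat.dvd_prime_pow hp.out).1 (hm ▸ Dvd.intro_left q (by ring) : q ∣ p ^ (m : ℕ)) |>.imp fun k hk => hk.2

section

variable {F : Type u} [Field F] [Finite F] {ι : Type} [Fintype ι] [DecidableEq ι]
  (p : ℕ) [hp : Fact p.Prime] [hFp : CharP F p] {E : Type} [Field E] [Fintype E] [hEp : CharP E p]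

include p hp hFp hEp in
/-- **absolutely irreducible representations of `SU(3, q)`** -/
theorem su3_bound {q : ℕ} (hE : Fintype.card E = q ^ 2) (ρ : SU 3 E q →* GL ι F)
    (hM : Submodule.span (AlgebraicClosure F) (Set.range (acRep ρ)) = ⊤) (h2 : 2 ≤ Fintype.card ι) {N : ℕ}
    (hN : Nat.card F ^ N = q ^ 2) (hN2 : 2 ≤ N) :
    6 ≤ Fintype.card ι ∧ (3 ≤ N → 6 * N ≤ Fintype.card ι) := by
  classical
  have hp2 := hp.out.two_le
  have : Fintype F := Fintype.ofFinite F
  have hq2 := two_le hE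
  obtain ⟨f, hq⟩ := exists_exp (p := p) hE
  obtain ⟨s, -, hs⟩ := FiniteField.card F p
  have hs0 : 0 < (s : ℕ) := s.pos
  have hcF : Nat.card F = p ^ (s : ℕ) := by rw [Nat.card_eq_fintype_card, hs]
  have hQ2 : 2 ≤ p ^ (s : ℕ) := by
    have : p ^ 1 ≤ p ^ (s : ℕ) := Nat.pow_le_pow_right hp.out.pos hs0
    rw [pow_one] at this
    omega
  rw [hcF] at hN
  by_cases hn : Fintype.card ι < q ^ 3
  swap
  · push Not at hn
    have h3 : 2 ^ 3 ≤ q ^ 3 := Nat.pow_le_pow_left hq2 3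
    refine ⟨by omega, fun hN3 => ?_⟩
    have h4 : 2 ^ N ≤ q ^ 2 := by
      rw [← hN]
      exact Nat.pow_le_pow_left hQ2 N
    have h5 : 2 ^ 3 ≤ 2 ^ N := Nat.pow_le_pow_right (by norm_num) hN3
    have h6 : 3 ≤ q := by
      by_contra hcon
      have h7 : q ^ 2 ≤ 2 ^ 2 := Nat.pow_le_pow_left (by omega) 2
      omega
    have h7 : 3 * q ^ 2 ≤ q ^ 3 := by
      rw [pow_succ q 2, mul_comm]
      exact Nat.mul_le_mul_left _ h6
    by_cases hN4 : 4 ≤ N
    · have := pow_bound hN4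
      omega
    · obtain rfl : N = 3 := by omega
      omega
  have hchar : CharP (AlgebraicClosure F) p := charP_of_injective_algebraMap (algebraMap F _).injective p
  obtain ⟨j⟩ := exists_embed E (AlgebraicClosure F) p
  obtain ⟨e₀, he, he0⟩ : ∃ e : Fin 3 → E, hermForm 3 E q e e = 0 ∧ e ≠ 0 := by
    obtain ⟨t, ht⟩ := exists_norm_eq hE (c := (-1 : E)) (by rw [neg_pow_q hE, one_pow])
    refine ⟨![1, t, 0], ?_, fun h0 => by simpa using congrFun h0 0⟩
    rw [herm_def, Fin.sum_univ_three]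
    simp [zero_pow_q hE, ht]
  obtain ⟨a, ha1, ha2, ψ, v, hψ, hv0, hv, hc⟩ := exists_model (j := j) hE he he0 hM p hn h2
  obtain ⟨Φ, V, hK⟩ := exists_ker hE he he0 hM hψ hv0 hv hc
  -- the exponent is fixed by the Frobenius map of `F`
  obtain ⟨σ, hσ⟩ := exists_frob F p s
  have hfix : ∀ g, (acRep ρ g).map σ = acRep ρ g := by
    intro g
    ext x y
    rw [acRep_apply, Matrix.map_apply, Matrix.map_apply, hσ, ← map_pow, ← hs, FiniteField.pow_card]
  have hfa := exp_fixed hE he he0 hM p hn (by omega) hψ hv0 hv hc σ (pow_ne_zero _ hp.out.ne_zero) hσ hfix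
  set Q := p ^ (s : ℕ) with hQ
  have hdvd : q ^ 2 - 1 ∣ a * (Q - 1) := by
    obtain ⟨t, ht⟩ := IsCyclic.exists_generator (α := Eˣ)
    have h1 : orderOf t = q ^ 2 - 1 := by
      rw [orderOf_eq_card_of_forall_mem_zpowers ht, Nat.card_eq_fintype_card, Fintype.card_units, hE]
    rw [← h1]
    apply orderOf_dvd_of_pow_eq_one
    apply Units.ext
    rw [Units.val_pow_eq_pow_val, Units.val_one]
    have h3 := hfa (t : E)
    have h5 : a * Q = a * (Q - 1) + a := by
      rw [Nat.mul_sub, mul_one, Nat.sub_add_cancel (Nat.le_mul_of_pos_right _ (by omega))]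
    rw [h5, pow_add] at h3
    exact mul_right_cancel₀ (pow_ne_zero a t.ne_zero) (h3.trans (one_mul _).symm)
  set R := ∑ i ∈ Finset.range N, Q ^ i with hR
  have hgeom : R * (Q - 1) = q ^ 2 - 1 := by
    rw [← hN, hR]
    exact geom_sum_mul_of_one_le (by omega) N
  have hRa : R ∣ a := by
    rw [← hgeom] at hdvd
    exact Nat.dvd_of_mul_dvd_mul_right (by omega) hdvd
  obtain ⟨c, hca⟩ := hRa
  have hR1 : 1 ≤ R := by
    rcases Nat.eq_zero_or_pos R with h0 | h0
    · rw [h0, zero_mul] at hca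
      omega
    · exact h0
  have hc1 : 1 ≤ c := by
    rcases Nat.eq_zero_or_pos c with h0 | h0
    · rw [h0, mul_zero] at hca
      omega
    · exact h0
  have hcQ : c < Q := by
    rw [hca, ← hgeom] at ha2
    have := Nat.le_of_mul_le_mul_left ha2 hR1
    omega
  have hNs : N * s = f + f := by
    have h3 : p ^ (s * N : ℕ) = p ^ (f * 2) := by rw [pow_mul, pow_mul, ← hq, ← hN]
    have h4 := Nat.pow_right_injective hp2 h3
    rw [mul_comm N]
    omega
  have hrep : a = rep Q c N := by rw [hca, rep, mul_comm]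
  rw [hrep] at hK
  exact ker_bound (p := p) hE hq hNs hc1 hcQ hK hN2

variable {P : Subgroup (GL ι F)}

include p hp hFp hEp in
/-- **cores of type `PSU(3, q)`** -/
theorem core_bound {q : ℕ} (hC : Core P) (hq3 : 3 ≤ q) (hE : Fintype.card E = q ^ 2) (e : Soc P ≃* PSU 3 E q) :
    ∃ N, 1 ≤ N ∧ Nat.card F ^ N = q ^ 2 ∧ (3 ≤ N → 6 * N ≤ Fintype.card ι) := by
  classical
  have hne := hC.nonempty
  have hp2 := hp.out.two_le
  have : Fintype F := Fintype.ofFinite F
  obtain ⟨f, hq⟩ := exists_exp (p := p) hE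
  have hcj := core_psu_cj p hC le_rfl hE (by omega) e
  obtain ⟨φ₀, h1, -, -⟩ := psu_cover p hC.perfect le_rfl hE (by omega) e
  have hM := span_acRep h1 (H920.span_eq_top hC.absIrred)
  obtain ⟨m, -, hm⟩ := FiniteField.card F p
  have h2f : H915.LD.Fr P (p ^ (2 * f)) := by
    rw [two_mul, pow_add, ← hq]
    exact hcj.fr
  obtain ⟨N, hN⟩ : (m : ℕ) ∣ 2 * f := dvd_of_pow_eq hp2 hm (hC.pow_eq p h2f)
  have hN' : Nat.card F ^ N = q ^ 2 := by
    rw [Nat.card_eq_fintype_card, hm, hq, ← pow_mul, ← pow_mul, ← hN, mul_comm]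
  refine ⟨N, ?_, hN', fun hN3 => (su3_bound p hE φ₀ hM hC.two_le hN' (by omega)).2 hN3⟩
  by_contra hcon
  obtain rfl : N = 0 := by omega
  rw [pow_zero] at hN'
  nlinarith

end

/-- the primes dividing the order of `PSU(3, q)` -/
theorem dvd_of_card {K : Type} [Field K] [Fintype K] {q r : ℕ} (hK : Fintype.card K = q ^ 2) (hr : r.Prime)
    (hrq : ¬ r ∣ q) (hd : r ∣ Nat.card (PSU 3 K q)) : r ∣ q ^ 6 - 1 := by
  have hq2 := two_le hK
  have h1 := S0280.result hK 3 (by norm_num)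
  simp only [Finset.prod_range_succ, Finset.prod_range_zero, one_mul] at h1
  have h2 : r ∣ q ^ (3 * (3 - 1) / 2) * ((q + 1) * (q ^ 2 - 1) * (q ^ 3 + 1)) := by
    have h3 : r ∣ Nat.gcd 3 (q + 1) * ((q + 1) * Nat.card (PSU 3 K q)) := (hd.mul_left _).mul_left _
    rw [h1] at h3
    simpa using h3
  have e1 : q ^ 6 - 1 = (q ^ 3 - 1) * (q ^ 3 + 1) := by
    have hq3 : 1 ≤ q ^ 3 := Nat.one_le_pow _ _ (by omega)
    obtain ⟨s, hs⟩ : ∃ s, q ^ 3 = s + 1 := ⟨q ^ 3 - 1, (Nat.sub_add_cancel hq3).symm⟩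
    have h7 : q ^ 6 = q ^ 3 * q ^ 3 := by ring
    have h8 : (s + 1) * (s + 1) = s * (s + 1 + 1) + 1 := by ring
    rw [h7, hs, h8, Nat.add_sub_cancel, Nat.add_sub_cancel]
  have h4 : q ^ 2 - 1 ∣ q ^ 6 - 1 := Nat.pow_sub_one_dvd_pow_sub_one q (by norm_num)
  have h5 : q + 1 ∣ q ^ 2 - 1 := ⟨q - 1, by rw [← Nat.sq_sub_sq q 1, one_pow]⟩
  have h6 : q ^ 3 + 1 ∣ q ^ 6 - 1 := by rw [e1]; exact dvd_mul_left _ _
  rcases hr.dvd_mul.1 h2 with h | h
  · exact absurd (hr.dvd_of_dvd_pow h) hrq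
  rcases hr.dvd_mul.1 h with h | h
  · rcases hr.dvd_mul.1 h with h | h
    · exact h.trans (h5.trans h4)
    · exact h.trans h4
  · exact h.trans h6

/-- **The row `PSU(3, q₀)`, defining characteristic** -/
theorem not_psu3 {n k m : ℕ} {F : Type u} [Field F] [Finite F] {P : Subgroup (GL (Fin n) F)} (h : Row k m P)
    (hg : ∃ r, r.Prime ∧ r ∣ m ∧ r ∣ Nat.card (Soc P)) {p : ℕ} [hp : Fact p.Prime] [hFp : CharP F p] {K : Type}
    [Field K] [Fintype K] [hKp : CharP K p] {q₀ : ℕ} (hK : Fintype.card K = q₀ ^ 2) (h2 : q₀ ≠ 2)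
    (e : Soc P ≃* PSU 3 K q₀) : False := by
  have hq2 := two_le hK
  obtain ⟨N, hN1, hN, hb⟩ := core_bound p h.core (by omega) hK e
  rw [Fintype.card_fin] at hb
  obtain ⟨r, hr, hrm, hrc⟩ := hg
  have hten := h.num.ten
  have hlt := h.num.nlt
  have hrq : ¬ r ∣ q₀ := by
    intro hd
    have h1 : r ∣ Nat.card F ^ N := by
      rw [hN]
      exact dvd_pow hd (by norm_num)
    exact h.num.not_dvd_q hr hrm (hr.dvd_of_dvd_pow h1)
  rw [Nat.card_congr e.toEquiv] at hrc
  have h1 := dvd_of_card hK hr hrq hrc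
  have hk : k ∣ 3 * N := by
    rw [← h.num.pow_eq_one_iff hr hrm]
    have : Fact r.Prime := ⟨hr⟩
    have h2 : Nat.card F ^ (3 * N) = q₀ ^ 6 := by
      rw [mul_comm, pow_mul, hN]
      ring
    have h3 : 1 ≤ q₀ ^ 6 := Nat.one_le_pow _ _ (by omega)
    rw [← Nat.cast_pow, h2, ← sub_eq_zero, ← Nat.cast_one, ← Nat.cast_sub h3, ZMod.natCast_eq_zero_iff]
    exact h1
  have hk6 := h.num.six_le
  have hk3 := Nat.le_of_dvd (by omega) hk
  by_cases hN3 : 3 ≤ N
  · have := hb hN3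
    omega
  · obtain rfl : N = 2 := by omega
    rcases core_psu3 p h.core (by omega) hK e (by rw [Fintype.card_fin]; omega) with hsd | hc
    · rcases core_psu3_sd p h.core (by omega) hK e (by rw [Fintype.card_fin]; omega) hsd with h2 | h2
      · rw [Fintype.card_fin] at h2
        omega
      · rw [Fintype.card_fin] at h2
        omega
    · have h3 : 1 < q₀ ^ 2 := Nat.one_lt_pow (by norm_num) (by omega)
      rw [hc.1, pow_two (q₀ ^ 2)] at hN
      nlinarith

end Cfsg.Agent.H2.Rb.C525
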