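import Cfsg.Agent.H69.Ppd.FieldD
import Cfsg.Agent.H69.Ppd.LeviAbs
import Cfsg.Agent.H2.Rb.UMain

/-!
# The last node of `SU(2 m + 1, q)` in the defining characteristic (from helper69's file for S5948, adapted by helper2)

`φ : SU N K q → GL(ι, F)` with absolutely irreducible image, `|F| ^ j = q ^ 2`, `j ≥ 2`, `i` the last node, `i ∉ J`:

* `exists_su3` : `SU 3 K q ≃ Lv X i`;
* **`last_bound`** : `6 ≤ dim Le {i}`, and `6 j ≤ dim Le {i}` if `j ≥ 3`.
-/

set_option autoImplicit false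
set_option linter.unusedSectionVars false

namespace Cfsg.Agent.H2.Rb.C69

open Cfsg.Agent.H2.Rb.C525
open Cfsg.Agent.H69.Ppd

open CoxeterSystem Cfsg.Agent.ChevalleyStructure.CoxeterGeom Cfsg.Agent.Tits.Roots Cfsg.Agent.Nodes.TypeC
open Cfsg.Agent.Nodes.Comb Cfsg.Agent.Nodes.Reps Cfsg.Agent.Nodes.WittRoot Cfsg.Agent.Nodes.BNOf
open Cfsg.Agent.Nodes.WittRGD Cfsg.Agent.Nodes.RGDLib Cfsg.Agent.Nodes.WittAll Cfsg.Agent.Nodes
open Cfsg.Agent.TitsThree Cfsg.Agent.TitsThree.Siegel Cfsg.Agent.TitsThree.WittFrame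
  Cfsg.Agent.TitsThree.WittWeyl Cfsg.Agent.TitsThree.FrameCN
open Cfsg.Agent.LieClassical.HermBasic Cfsg.Agent.LieClassical.HermSiegel Cfsg.Agent.LieClassical.HermGen
open Cfsg.Agent.TitsThree.KSideU Cfsg.Agent.TitsThree.KSideUDesc Cfsg.Agent.Nodes.WittU
  Cfsg.Agent.TitsThree.WBridge Cfsg.Agent.TitsThree.SiegelGen Cfsg.Agent.H61.SUCross
open Cfsg.Agent.Nodes.Bruhat Cfsg.Agent.Nodes.OppDec Cfsg.Agent.Nodes.LeviDec Cfsg.Agent.KFacts.RgdOpp
  Cfsg.Agent.Omega.CR Cfsg.Agent.Omega.FOne.Lift.Sd Cfsg.Agent.H911 Cfsg.Agent.H905.Md Cfsg.Agent.H156.Ppd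
open Cfsg Cfsg.Geo Cfsg.Agent.H67 Cfsg.Agent.KFacts.MulOdd.Inst
open scoped MatrixGroups Matrix

variable {K : Type} [Field K] [Fintype K] {q N m : ℕ} {hK : Fintype.card K = q ^ 2} (hN : 3 ≤ N)
  (W : WFrame (PU hK N) m) {i : Fin m}

/-- the last node -/
theorem exists_su3 (hi : ¬ (i : ℕ) + 1 < m) {d : Fin N → K} (hd : hermForm N K q d d = 1)
    (hV0 : W.V0 = Submodule.span K {d}) :
    Nonempty (SU 3 K q ≃* Lv (WittModel.X (modelSU hK hN W)) i) := by
  obtain ⟨W', d', hd', hV0'⟩ := exists_wframe_odd (N := 3) hK (m := 1) rfl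
  obtain ⟨e, -⟩ := H61.LastOdd.exists_equiv (i := i) hV0 hd hV0' hd'
  exact ⟨(e.symm.trans (MulEquiv.subgroupCongr (H61.SUNode.Nv_eq_ZG hi).symm)).trans (nodeEquiv hN W i).symm⟩

variable {Wg : Type*} [Group Wg] {cs : CoxeterSystem (CoxeterMatrix.B m) Wg} {F : Type*} [Field F] [Finite F]
  {ι : Type} [Fintype ι] [DecidableEq ι] [Nonempty ι] {P : Subgroup (GL ι F)} {φ : SU N K q →* GL ι F}

/-- **The edges of the last node.** -/
theorem last_bound {p : ℕ} [hp : Fact p.Prime] [CharP F p] [CharP K p] (hW : Kind W)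
    (hφ : φ.range = P) (hP : ActsAbsolutelyIrreducibly (matrixSet P))
    (hi : ¬ (i : ℕ) + 1 < m) {d : Fin N → K} (hd : hermForm N K q d d = 1)
    (hV0 : W.V0 = Submodule.span K {d})
    (hJ : i ∉ Jx cs (isCartan m) (WittModel.X (modelSU hK hN W)) (lrep φ)) {j : ℕ}
    (hj : Nat.card F ^ j = q ^ 2) (hj2 : 2 ≤ j) :
    6 ≤ Module.finrank F (Le cs (isCartan m) (WittModel.T (modelSU hK hN W)) (WittModel.X (modelSU hK hN W))
      (lrep φ) {i}) ∧
    (3 ≤ j → 6 * j ≤ Module.finrank F (Le cs (isCartan m) (WittModel.T (modelSU hK hN W))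
      (WittModel.X (modelSU hK hN W)) (lrep φ) {i})) := by
  have : Finite Wg := finite_W cs
  have hm0 : 0 < m := lt_of_le_of_lt (Nat.zero_le _) i.2
  obtain ⟨p0, hp0, -⟩ := exists_adm hK W
  have hA : AmbT (toFrame W) p (modelSU hK hN W).I := AmbT.of_amb (amb_U hK W) p
  have R := rgdC_model (modelSU hK hN W) hA hp0 cs
  have hG : GG cs (isCartan m) (WittModel.T (modelSU hK hN W)) (WittModel.X (modelSU hK hN W)) = ⊤ :=
    gg_top (WittModel.G1_eq_top _ hm0 _)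
  have hT : ∀ s ∈ WittModel.T (modelSU hK hN W), ∀ t ∈ WittModel.T (modelSU hK hN W), s * t = t * s :=
    modelT_comm hA (kd_su hW)
  obtain ⟨w, hw0, hw1, -, -⟩ := exists_w R hG hT hφ hP
  have hirr := lrep_irr (T := WittModel.T (modelSU hK hN W)) (X := WittModel.X (modelSU hK hN W))
    (h := isCartan m) (cs := cs) hG hφ hP
  obtain ⟨ψ, hψ⟩ := exists_levi R hirr hw0 hw1 i
  obtain ⟨e⟩ := exists_su3 hN W hi hd hV0
  have hr : (ψ.comp e.toMonoidHom).range = ψ.range := by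
    ext y
    constructor
    · rintro ⟨x, rfl⟩
      exact ⟨_, rfl⟩
    · rintro ⟨x, rfl⟩
      refine ⟨e.symm x, ?_⟩
      change ψ (e (e.symm x)) = ψ x
      rw [MulEquiv.apply_symm_apply]
  have hM := Cfsg.Agent.H929.U3.span_acRep hr (H920.span_eq_top hψ)
  have hD1 : Module.finrank F (D cs (isCartan m) (WittModel.X (modelSU hK hN W)) (lrep φ)) = 1 := by
    rw [hw1]
    exact finrank_span_singleton hw0
  have h2 := two_le_edge R hirr hJ
  rw [hD1, mul_one] at h2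
  have h3 := Cfsg.Agent.H2.Rb.C525.su3_bound p hK (ψ.comp e.toMonoidHom) hM (by rw [Fintype.card_fin]; exact h2) hj hj2
  rw [Fintype.card_fin] at h3
  exact h3

end Cfsg.Agent.H2.Rb.C69
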