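import Cfsg.Agent.H948.Ppd.PmBase
import Cfsg.Agent.H948.Ppd.PmLevi
import Cfsg.Agent.H948.Ppd.PmRank
import Cfsg.Agent.H2.Rb.Psl
import Cfsg.Agent.H2.Rb.Basic
import Cfsg.Agent.S0294

/-!
# S3691 (S), small primes: `PΩ⁻_{2l}(K)` in its own characteristic (from helper948's file for S5948, adapted by helper2)

* **`nat_pminus`** : `Row k m P`, `Soc P ≃ PΩ⁻_{2l}(K)`, `char K = char F` imply `Nat' P`.
-/

set_option autoImplicit false
set_option linter.unusedSectionVars false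
set_option linter.style.haveILetI false

namespace Cfsg.Agent.H2.Rb.C948

open Cfsg.Agent.H2.Rb.C650
open Cfsg.Agent.H948.Ppd

open CoxeterSystem Cfsg.Agent.ChevalleyStructure.CoxeterGeom Cfsg.Agent.Tits.Roots Cfsg.Agent.Tits.Core
  Cfsg.Agent.Nodes.Reps Cfsg.Agent.Nodes.BNOf Cfsg.Agent.Nodes.Bruhat Cfsg.Agent.Nodes.RGDLib
open Cfsg.Agent.Nodes Cfsg.Agent.Nodes.WittRoot Cfsg.Agent.Nodes.WittRGD Cfsg.Agent.Nodes.WittAll Cfsg.Agent.Nodes.WittInst
open Cfsg.Agent.Nodes.TypeC (isCartan)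
open Cfsg.Agent.TitsThree.Siegel Cfsg.Agent.TitsThree.SiegelGen Cfsg.Agent.TitsThree.WittFrame Cfsg.Agent.TitsThree.FrameCN
  Cfsg.Agent.TitsThree.WBridge Cfsg.Agent.TitsThree.KSideO Cfsg.Agent.TitsThree Cfsg.Agent.TitsThree.StdData
open Cfsg.Agent.LieClassical Cfsg.Agent.LieClassical.OrthCore Cfsg.Agent.LieClassical.OrthTrans
open Cfsg.Agent.LieClassical.OrthSimple Cfsg.Agent.LieClassical.OrthFinite Cfsg.Agent.LieClassical.OrthForms
open Cfsg.Agent.H915.LD Cfsg.Agent.H911 Cfsg.Agent.H905.Md Cfsg.Agent.H925.Nat Cfsg.Agent.Nodes.RGDLift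
open Cfsg.Agent.H156.Ppd (Cov lrep exists_cov)
open Cfsg.Agent.Omega.CR Cfsg.Agent.Omega.FOne.Lift.Sd
open Cfsg.Agent.H2.Rb.C100 (Row Num Nat')
open Cfsg Cfsg.Geo QuadraticMap
open scoped MatrixGroups Matrix

universe u v w

/-! ### arithmetic -/

theorem two_mul_le_pow' {j : ℕ} (hj : 1 ≤ j) : 2 * j ≤ 2 ^ j := by
  induction j, hj using Nat.le_induction with
  | base => norm_num
  | succ j hj ih => rw [pow_succ]; omega

/-- `2 x ≤ ε`, `j = x + 1` -/
theorem eps_ge {x d ε : ℕ} (hd : ∃ m, 2 ≤ m ∧ d = m ^ (x + 1)) (hε : d ≤ ε + 2) : 2 * x ≤ ε := by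
  obtain ⟨m, hm, rfl⟩ := hd
  have h1 : 2 ^ (x + 1) ≤ m ^ (x + 1) := Nat.pow_le_pow_left hm _
  have h2 := two_mul_le_pow' (j := x + 1) (by omega)
  omega

theorem d_ge {j d : ℕ} (hj : 1 ≤ j) (hd : ∃ m, 2 ≤ m ∧ d = m ^ j) : 2 * j ≤ d := by
  obtain ⟨m, hm, rfl⟩ := hd
  exact (two_mul_le_pow' hj).trans (Nat.pow_le_pow_left hm _)

theorem succ_le_pow {l : ℕ} (hl : 3 ≤ l) : l + 1 ≤ 2 ^ (l - 1) := by
  induction l, hl using Nat.le_induction with
  | base => norm_num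
  | succ l hl ih =>
    have e : 2 ^ (l + 1 - 1) = 2 * 2 ^ (l - 1) := by
      rw [← pow_succ']
      congr 1
      omega
    rw [e]
    omega

theorem arith_lastM {l j n d ε : ℕ} (hl : 3 ≤ l) (hj : 1 ≤ j) (hn : n < 2 * (l + 1) * j)
    (hd : ∃ m, 2 ≤ m ∧ d = m ^ j) (hε : d ≤ ε + 2) (h : 2 ^ l + l * 2 ^ (l - 1) * ε ≤ n) : False := by
  obtain ⟨x, rfl⟩ : ∃ x, j = x + 1 := ⟨j - 1, by omega⟩
  have h1 := eps_ge hd hε
  have h2 := succ_le_pow hl
  have e : 2 ^ l = 2 * 2 ^ (l - 1) := by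
    rw [← pow_succ']
    congr 1
    omega
  rw [e] at h
  set Q := 2 ^ (l - 1) with hQ
  have h3 : (l + 1) * (2 + 2 * (l * x)) ≤ Q * (2 + 2 * (l * x)) := Nat.mul_le_mul_right _ h2
  have h4 : l * Q * (2 * x) ≤ l * Q * ε := Nat.mul_le_mul_left _ h1
  have h5 : Q * (2 + 2 * (l * x)) = 2 * Q + l * Q * (2 * x) := by ring
  have h6 : x ≤ l * x := Nat.le_mul_of_pos_left x (by omega)
  have h7 : 2 * (l + 1) * (x + 1) ≤ (l + 1) * (2 + 2 * (l * x)) := by
    calc 2 * (l + 1) * (x + 1) = (l + 1) * (2 + 2 * x) := by ring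
      _ ≤ _ := Nat.mul_le_mul_left _ (by omega)
  omega

theorem arith_firstM {l j n d ε : ℕ} (hl : 3 ≤ l) (hj : 1 ≤ j) (hn : n < 2 * (l + 1) * j)
    (hd : ∃ m, 2 ≤ m ∧ d = m ^ j) (hε : d ≤ ε + 2) (h : 2 * l + 2 * l * (l - 1) * ε ≤ n) : j = 1 ∧ d ≤ 2 := by
  obtain ⟨x, rfl⟩ : ∃ x, j = x + 1 := ⟨j - 1, by omega⟩
  have h1 := eps_ge hd hε
  have h2 : 2 * l * 2 * ε ≤ 2 * l * (l - 1) * ε := Nat.mul_le_mul_right _ (Nat.mul_le_mul_left _ (by omega))
  have h3 : 3 * ε ≤ l * ε := Nat.mul_le_mul_right _ hl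
  have h4 : l * (2 * x) ≤ l * ε := Nat.mul_le_mul_left _ h1
  have h5 : 2 * (l + 1) * (x + 1) = 2 * (l * x) + 2 * x + 2 * l + 2 := by ring
  have h6 : 2 * l * 2 * ε = 4 * (l * ε) := by ring
  have h7 : l * (2 * x) = 2 * (l * x) := by ring
  have h8 : 3 * x ≤ l * x := Nat.mul_le_mul_right _ hl
  rw [h5] at hn
  have hx : x = 0 := by omega
  subst hx
  exact ⟨rfl, by omega⟩

theorem arith_firstA {l j n d ε : ℕ} (hl : 3 ≤ l) (hj : 1 ≤ j) (hn : n < 4 * (l + 1) * j)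
    (hd : ∃ m, 2 ≤ m ∧ d = m ^ j) (hε : d ≤ ε + 2) (h : 2 * l + 2 * l * (l - 1) * ε ≤ n) :
    (j = 1 ∧ d ≤ 2) ∨ (l = 3 ∧ j = 2 ∧ d = 4) := by
  obtain ⟨x, rfl⟩ : ∃ x, j = x + 1 := ⟨j - 1, by omega⟩
  have h1 := eps_ge hd hε
  rcases Nat.lt_or_ge 3 l with hl4 | hl3
  · left
    have h2 : 2 * l * 3 * ε ≤ 2 * l * (l - 1) * ε := Nat.mul_le_mul_right _ (Nat.mul_le_mul_left _ (by omega))
    have h3 : 4 * ε ≤ l * ε := Nat.mul_le_mul_right _ hl4
    have h4 : l * (2 * x) ≤ l * ε := Nat.mul_le_mul_left _ h1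
    have h5 : 4 * (l + 1) * (x + 1) = 4 * (l * x) + 4 * x + 4 * l + 4 := by ring
    have h6 : 2 * l * 3 * ε = 6 * (l * ε) := by ring
    have h7 : l * (2 * x) = 2 * (l * x) := by ring
    have h8 : 4 * x ≤ l * x := Nat.mul_le_mul_right _ hl4
    rw [h5] at hn
    have hx : x = 0 := by
      by_contra hx
      have h9 : l ≤ l * x := Nat.le_mul_of_pos_right l (by omega)
      omega
    subst hx
    refine ⟨rfl, ?_⟩
    by_contra hd2
    have h9 : l ≤ l * ε := Nat.le_mul_of_pos_right l (by omega)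
    omega
  · obtain rfl : l = 3 := by omega
    have hx : x ≤ 1 := by omega
    rcases Nat.lt_or_ge x 1 with hx0 | hx1
    · obtain rfl : x = 0 := by omega
      left
      exact ⟨rfl, by omega⟩
    · obtain rfl : x = 1 := by omega
      right
      refine ⟨rfl, rfl, ?_⟩
      obtain ⟨m, hm, rfl⟩ := hd
      have h3 : m ^ (1 + 1) ≤ 4 := by omega
      have h4 : m = 2 := by
        rw [pow_succ, pow_one] at h3
        nlinarith
      rw [h4]
      norm_num

theorem arith_midM {l j n d : ℕ} (hl : 3 ≤ l) (hj : 1 ≤ j) (hn : n < 2 * (l + 1) * j)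
    (hd : ∃ m, 2 ≤ m ∧ d = m ^ j) (h : 4 * l * d ≤ 2 * n) : False := by
  have h1 := d_ge hj hd
  have h2 : 4 * l * (2 * j) ≤ 4 * l * d := Nat.mul_le_mul_left _ h1
  have h3 : 4 * l * (2 * j) = 8 * (l * j) := by ring
  have h4 : 2 * (l + 1) * j = 2 * (l * j) + 2 * j := by ring
  have h5 : 3 * j ≤ l * j := Nat.mul_le_mul_right _ hl
  omega

theorem arith_midA {l j n d N : ℕ} (hj : 1 ≤ j) (hn : n < 4 * (l + 1) * j)
    (hd : ∃ m, 2 ≤ m ∧ d = m ^ j) (hN : 4 * l + 4 ≤ N) (h : N * d ≤ 2 * n) : False := by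
  have h1 := d_ge hj hd
  have h2 : (4 * l + 4) * (2 * j) ≤ N * d := Nat.mul_le_mul hN h1
  have h3 : (4 * l + 4) * (2 * j) = 2 * (4 * (l + 1) * j) := by ring
  omega

theorem arith_midB {j n d ε : ℕ} (hj : 1 ≤ j) (hn : n < 16 * j)
    (hd : ∃ m, 2 ≤ m ∧ d = m ^ j) (hε : d ≤ ε + 2) (h : 12 + 24 * ε ≤ n) : j = 1 := by
  obtain ⟨x, rfl⟩ : ∃ x, j = x + 1 := ⟨j - 1, by omega⟩
  have h1 := eps_ge hd hε
  omega

theorem choose_four {l k : ℕ} (hl : 4 ≤ l) (h1 : 2 ≤ k) (h2 : k < l) : 4 * l + 4 ≤ l.choose k * 2 ^ k := by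
  rcases Nat.lt_or_ge 2 k with h3 | h3
  · have h4 := TypeB.le_choose (n := l) (k := k) (by omega) h2
    have h5 : 2 ^ 3 ≤ 2 ^ k := Nat.pow_le_pow_right (by norm_num) h3
    have h6 : l * 2 ^ 3 ≤ l.choose k * 2 ^ k := Nat.mul_le_mul h4 h5
    omega
  · obtain rfl : k = 2 := by omega
    rw [Nat.choose_two_right]
    have h4 : 2 * (l * (l - 1) / 2) = l * (l - 1) := Nat.mul_div_cancel' (Nat.even_mul_pred_self l).two_dvd
    have h5 : l * 3 ≤ l * (l - 1) := Nat.mul_le_mul_left _ (by omega)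
    omega

/-! ### orders -/

section order

variable {n : ℕ} {F : Type u} [Field F] [Finite F] {k m : ℕ} {P : Subgroup (GL (Fin n) F)}

theorem le_minus (h : Row k m P) {K : Type*} [Field K] [Fintype K] {j l : ℕ} (hj : 1 ≤ j)
    (hjK : Nat.card F ^ j = Nat.card K ^ 2) (hl : 4 ≤ l) {a b : K}
    (hab : ∀ z₁ z₂ : K, z₁ ^ 2 + a * z₁ * z₂ + b * z₂ ^ 2 = 0 → z₁ = 0 ∧ z₂ = 0) {r : ℕ} (hr : r.Prime) (hrm : r ∣ m)
    (hd : r ∣ Nat.card (POmega K (quadFormMinus (l - 1) K a b))) : k ≤ j * l := by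
  have h1 := S0294.result (F := K) rfl l hl a b hab
  have key : ∀ i, 1 ≤ i → i ≤ l → r ∣ Fintype.card K ^ (2 * i) - 1 → k ≤ j * l := by
    intro i hi hil hdi
    rw [pow_mul, ← Nat.card_eq_fintype_card] at hdi
    exact (H2.Rb.C650.le_of_dvd h.num hr hrm hjK hj hi hdi).trans (Nat.mul_le_mul_left _ hil)
  have h2 : r ∣ Fintype.card K ^ (l * (l - 1)) * (Fintype.card K ^ l + 1) *
      ∏ i ∈ Finset.range (l - 1), (Fintype.card K ^ (2 * (i + 1)) - 1) := by
    rw [← h1]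
    exact hd.mul_left _
  rcases hr.dvd_mul.1 h2 with h3 | h3
  · rcases hr.dvd_mul.1 h3 with h3 | h3
    · exfalso
      have h4 := hr.dvd_of_dvd_pow h3
      rw [← Nat.card_eq_fintype_card] at h4
      have h5 : r ∣ Nat.card F ^ j := by
        rw [hjK]
        exact dvd_pow h4 (by norm_num)
      exact h.num.not_dvd_q hr hrm (hr.dvd_of_dvd_pow h5)
    · refine key l (by omega) le_rfl ?_
      have h4 : Fintype.card K ^ (2 * l) - 1 = (Fintype.card K ^ l + 1) * (Fintype.card K ^ l - 1) := by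
        rw [mul_comm 2 l, pow_mul]
        exact Nat.sq_sub_sq (Fintype.card K ^ l) 1
      rw [h4]
      exact h3.mul_right _
  · obtain ⟨i, hi, hd⟩ := (Prime.dvd_finsetProd_iff hr.prime _).1 h3
    rw [Finset.mem_range] at hi
    exact key (i + 1) (by omega) (by omega) hd

end order

/-! ### edges -/

section edge

variable {F : Type u} [Field F] [Finite F] {ι : Type} [Fintype ι] [DecidableEq ι] {P : Subgroup (GL ι F)}
  {K : Type} [Field K] [Finite K] {ν : Type} [Fintype ν] [DecidableEq ν]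
  {H : HForm K (ν → K)} {n : ℕ} {Fr : Frame H (Fin n)} {T₀ : Type v} [Group T₀] {M : Model Fr T₀} {p : ℕ}
  [hp : Fact p.Prime] [hFp : CharP F p] [hKp : CharP K p] (hC : Core P) {hA : AmbT Fr p M.I} {p0 : Fr.Adm}
  {Y : Type w} [Group Y] [Finite Y] {f : Y →* M.I} {φ : Y →* GL ι F} {n₁ : Fin n → Y}
  (C : Cov (CoxeterMatrix.B n).toCoxeterSystem (isCartan n) p (TB M) (NB hA p0) (XB M) P f φ n₁)
  (hT : ∀ s ∈ (TB M).comap f, ∀ t ∈ (TB M).comap f, s * t = t * s)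
include hC C hT

/-- **The dimension of an edge.** -/
theorem edge_pow_B' {i : Fin n} (hi : i ∉ JB M p f φ) {E : Type} [Field E] [Finite E] [CharP E p] {σ : SL(2, E) →* Y}
    (N : Nd ((TB M).comap f) (fun x => lft p f (XB M x)) i σ) {a g s : ℕ} (hF : Nat.card F = p ^ a)
    (hE : Nat.card E = p ^ g) (hs : s * Nat.gcd a g = g) :
    ∃ m, 2 ≤ m ∧ dB M p f φ i = m ^ s := by
  have hWf : Finite (CoxeterMatrix.B n).Group := TypeC.finite_W (CoxeterMatrix.B n).toCoxeterSystem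
  have hne := hC.nonempty
  have := Fintype.ofFinite E
  have N' : H650.Ppd.Nd ((TB M).comap f) (fun x => lft p f (XB M x)) i σ := ⟨N.up, N.lo, N.tor⟩
  exact H650.Ppd.edge_pow C.rgd C.hGG hT C.range hC.absIrred N' hi hF hE hs

end edge

section mid

variable {F : Type u} [Field F] [Finite F] {ι : Type} [Fintype ι] [DecidableEq ι] {P : Subgroup (GL ι F)}
  {K : Type} [Field K] [Finite K] {ν : Type} [Fintype ν] [DecidableEq ν]
  {H : HForm K (ν → K)} {Fr : Frame H (Fin 3)} {T₀ : Type v} [Group T₀] {M : Model Fr T₀} {p : ℕ}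
  [hp : Fact p.Prime] [hFp : CharP F p] [hKp : CharP K p] (hC : Core P) {hA : AmbT Fr p M.I} {p0 : Fr.Adm}
  {Y : Type w} [Group Y] [Finite Y] {f : Y →* M.I} {φ : Y →* GL ι F} {n₁ : Fin 3 → Y}
  (C : Cov (CoxeterMatrix.B 3).toCoxeterSystem (isCartan 3) p (TB M) (NB hA p0) (XB M) P f φ n₁)
  (hT : ∀ s ∈ (TB M).comap f, ∀ t ∈ (TB M).comap f, s * t = t * s)
include hC C hT

theorem bound_mid (hi : (1 : Fin 3) ∉ JB M p f φ) :
    ∃ ε, dB M p f φ 1 ≤ ε + 2 ∧ 12 + 24 * ε ≤ Fintype.card ι := by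
  have hWf : Finite (CoxeterMatrix.B 3).Group := TypeC.finite_W (CoxeterMatrix.B 3).toCoxeterSystem
  have hne := hC.nonempty
  have hchar : CharP (AlgebraicClosure F) p := charP_of_injective_algebraMap (algebraMap F _).injective p
  obtain ⟨hirr, hD⟩ := irr_B hC C hT
  have h1 := dim_ge_mid C.rgd hirr hi
  have h2 := finrank_Io C.rgd hirr (1 : Fin 3)
  rw [hD, Module.finrank_fintype_fun_eq_card, mul_one] at h1
  rw [hD] at h2
  exact ⟨_, h2, h1⟩

theorem bound_levi (hi : (1 : Fin 3) ∉ JB M p f φ) {E : Type} [Field E] [Finite E] [CharP E p] {σ : SL(2, E) →* Y}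
    (N : Nd ((TB M).comap f) (fun x => lft p f (XB M x)) (2 : Fin 3) σ) {a : ℕ} (hF : Nat.card F = p ^ a)
    (hE : Nat.card E = Nat.card F ^ 2) : 20 ≤ Fintype.card ι := by
  have hWf : Finite (CoxeterMatrix.B 3).Group := TypeC.finite_W (CoxeterMatrix.B 3).toCoxeterSystem
  have hne := hC.nonempty
  have := Fintype.ofFinite E
  exact levi_F C.rgd C.hGG hT C.range hC.absIrred N hi hF hE

end mid

section row

open Minus

variable {n : ℕ} {F : Type u} [Field F] [Finite F] {k m : ℕ} {P : Subgroup (GL (Fin n) F)}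
  {K : Type} [Field K] [Fintype K] (p : ℕ) [hp : Fact p.Prime] [hFp : CharP F p] [hKp : CharP K p]
include hp hFp hKp

/-- **`PΩ⁻_{2l}(K)` in its own characteristic.** -/
theorem nat_pminus (h : Row k m P) (hg : ∃ r, r.Prime ∧ r ∣ m ∧ r ∣ Nat.card (Soc P)) {l : ℕ} (hl : 4 ≤ l) (a b : K)
    (hab : ∀ z₁ z₂ : K, z₁ ^ 2 + a * z₁ * z₂ + b * z₂ ^ 2 = 0 → z₁ = 0 ∧ z₂ = 0)
    (e : Soc P ≃* POmega K (quadFormMinus (l - 1) K a b)) : Nat' P := by
  have hC := h.core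
  obtain ⟨l, rfl⟩ : ∃ l', l = l' + 1 := ⟨l - 1, by omega⟩
  have hl3 : 3 ≤ l := by omega
  have e₁ : Soc P ≃* POmega K (quadFormMinus l K a b) := e
  have hG := good_minus (m := l) hab (by omega)
  have hA := ambT_minus hab p (by omega) hG
  have hp0 := pc_ne (m := l) hab
  have e' := e₁
  rw [← coe_minusForm] at e'
  have hWf : Finite (CoxeterMatrix.B l).Group := TypeC.finite_W (CoxeterMatrix.B l).toCoxeterSystem
  have hperf : commutator ↥(MM hab hG).I = ⊤ := H911.Five.commutator_top hG.E_perfect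
  obtain ⟨Y, _, _, f, φ, n₁, C⟩ := exists_covB hC hA hp0 (by omega) hperf e'
  have hT' := torus_comm_minus hab hG (by omega) hA
  obtain ⟨hT, hpow⟩ := lift_comm_pow C hp0 hT' (N₀ := Nat.card K ^ 2) fun i => nodes hab hG hA i
  -- the fields
  obtain ⟨f₀, -, hf₀⟩ := FiniteField.card K p
  rw [← Nat.card_eq_fintype_card] at hf₀
  have := Fintype.ofFinite F
  obtain ⟨a₀, -, ha₀⟩ := FiniteField.card F p
  rw [← Nat.card_eq_fintype_card] at ha₀
  obtain ⟨j, hj, hjK⟩ := C.exists_j hC hT (a := (f₀ : ℕ) * 2) (Nat.mul_ne_zero f₀.ne_zero two_ne_zero)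
    (by rw [pow_mul, ← hf₀]; exact hpow)
  rw [pow_mul, ← hf₀] at hjK
  have haj : (a₀ : ℕ) * j = f₀ * 2 := by
    have h1 : p ^ ((a₀ : ℕ) * j) = p ^ ((f₀ : ℕ) * 2) := by
      rw [pow_mul, ← ha₀, hjK, hf₀, ← pow_mul]
    exact Nat.pow_right_injective hp.out.two_le h1
  have hk : k ≤ j * (l + 1) := by
    obtain ⟨r, hr, hrm, hrT⟩ := hg
    exact le_minus h hj hjK hl hab hr hrm (by rwa [← Nat.card_congr e.toEquiv])
  have hn10 := h.num.ten
  have hnlt : n < 2 * (l + 1) * j := by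
    have := h.num.nlt
    calc n < 2 * k := this
      _ ≤ 2 * (j * (l + 1)) := Nat.mul_le_mul_left _ hk
      _ = 2 * (l + 1) * j := by ring
  -- the last node
  have hlast : ∀ i : Fin l, (i : ℕ) + 1 = l → ∃ (E : Type) (_ : Field E) (_ : Finite E) (_ : CharP E p)
      (σ : SL(2, E) →* Y), Nat.card E = Nat.card F ^ j ∧
        Nd ((TB (MM hab hG)).comap f) (fun x => lft p f (XB (MM hab hG) x)) i σ := by
    intro i hi
    obtain ⟨E, i1, i2, i3, σ', h1, -, N'⟩ := node_last hab hG hA hi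
    obtain ⟨σ, -, N⟩ := lift_nd C hp0 N'
    exact ⟨E, i1, i2, i3, σ, by rw [h1, hjK], N⟩
  have hnl : ∀ i : Fin l, (i : ℕ) + 1 = l → i ∈ JB (MM hab hG) p f φ := by
    intro i hi
    by_contra hiJ
    obtain ⟨E, i1, i2, i3, σ, h1, N⟩ := hlast i hi
    obtain ⟨ε, hε, h3⟩ := bound_last hC C hT hi hiJ
    rw [Fintype.card_fin] at h3
    exact arith_lastM hl3 hj hnlt (edge_pow_B hC C hT hiJ N h1) hε h3
  have hlong : ∀ i : Fin l, (i : ℕ) + 1 < l → ∃ σ : SL(2, K) →* Y,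
        Nd ((TB (MM hab hG)).comap f) (fun x => lft p f (XB (MM hab hG) x)) i σ := by
    intro i hi
    obtain ⟨σ', -, N'⟩ := node_long hab hG hA hi
    obtain ⟨σ, -, N⟩ := lift_nd C hp0 N'
    exact ⟨σ, N⟩
  -- the identification
  have hid : (∀ i : Fin l, 1 ≤ (i : ℕ) → i ∈ JB (MM hab hG) p f φ) →
      dB (MM hab hG) p f φ ⟨0, by omega⟩ ≤ 2 → Nonempty (K ≃+* F) ∧ Nat' P := by
    intro hJ hd2
    have hspan : Submodule.span K (Set.range (mt (MM hab hG).I)) = ⊤ :=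
      span_E hG (by rw [Fintype.card_sum, Fintype.card_sum, Fintype.card_fin, Fintype.card_fin]; omega)
    obtain ⟨τ, θ, hθ⟩ := identify_B hC hA hp0 (by omega) hspan C hT (o := ⟨0, by omega⟩) rfl
      (fun i hi => by
        by_contra h0
        refine hi (hJ i ?_)
        by_contra h1
        exact h0 (Fin.ext (by simp only; omega))) hd2
    have hcj : CjOf (omegaGL (quadFormMinus l F (τ a) (τ b))) P := by
      refine cjOf_of (mem_omega_iff'' hG) (map_omega_glm τ fun v => ?_) hθ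
      rw [coe_minusForm]
      exact quadFormMinus_map τ a b v
    have hab' : ∀ z₁ z₂ : F, z₁ ^ 2 + τ a * z₁ * z₂ + τ b * z₂ ^ 2 = 0 → z₁ = 0 ∧ z₂ = 0 := by
      intro z₁ z₂ hz
      obtain ⟨z₁, rfl⟩ := τ.surjective z₁
      obtain ⟨z₂, rfl⟩ := τ.surjective z₂
      rw [← map_pow, ← map_pow, ← map_mul, ← map_mul, ← map_mul, ← map_add, ← map_add] at hz
      obtain ⟨h1, h2⟩ := hab _ _ ((map_eq_zero τ).1 hz)
      rw [h1, h2, map_zero]
      exact ⟨rfl, rfl⟩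
    have hnd : IsNondegenerateQuadraticForm (quadFormMinus l F (τ a) (τ b)) := by
      rw [← coe_minusForm]
      exact H925.isND_of_nondeg (nondeg_minusForm l F (τ a) (τ b) hab')
    obtain ⟨Q₁, hQ₁, hP, -⟩ := hcj.omega_form hnd
    exact ⟨⟨τ⟩, Or.inr (Or.inr (Or.inr ⟨Q₁, hQ₁, hP.ge⟩))⟩
  -- the first node
  have hfirst : (∀ i : Fin l, 1 ≤ (i : ℕ) → i ∈ JB (MM hab hG) p f φ) →
      (⟨0, by omega⟩ : Fin l) ∉ JB (MM hab hG) p f φ := by
    intro hJ
    obtain ⟨i, hi⟩ := exists_node hC C hT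
    have h3 : i = ⟨0, by omega⟩ := by
      by_contra h0
      refine hi (hJ i ?_)
      by_contra h1
      exact h0 (Fin.ext (by simp only; omega))
    rwa [← h3]
  rcases Nat.even_or_odd' j with ⟨j', hj' | hj'⟩
  · -- `|K| = |F| ^ j'`
    subst hj'
    have hj1 : 1 ≤ j' := by omega
    have hfa : (f₀ : ℕ) = a₀ * j' := by
      have h1 : (a₀ : ℕ) * (2 * j') = a₀ * j' * 2 := by ring
      omega
    have hKF : Nat.card K = Nat.card F ^ j' := by rw [hf₀, ha₀, ← pow_mul, hfa]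
    have hnlt' : n < 4 * (l + 1) * j' := by
      calc n < 2 * (l + 1) * (2 * j') := hnlt
        _ = 4 * (l + 1) * j' := by ring
    have hedge : ∀ i : Fin l, (i : ℕ) + 1 < l → i ∉ JB (MM hab hG) p f φ →
        ∃ m, 2 ≤ m ∧ dB (MM hab hG) p f φ i = m ^ j' := by
      intro i hi hiJ
      obtain ⟨σ, N⟩ := hlong i hi
      exact edge_pow_B hC C hT hiJ N hKF
    have hJ : ∀ i : Fin l, 1 ≤ (i : ℕ) → i ∈ JB (MM hab hG) p f φ := by
      intro i hi1
      by_cases hi : (i : ℕ) + 1 < l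
      · by_contra hiJ
        rcases Nat.lt_or_ge 3 l with hl4 | hl3'
        · have h3 := bound_all hC C hT hiJ
          rw [Fintype.card_fin] at h3
          exact arith_midA hj1 hnlt' (hedge i hi hiJ) (choose_four hl4 (by omega) hi) h3
        · obtain rfl : l = 3 := by omega
          obtain rfl : i = 1 := by
            apply Fin.ext
            change (i : ℕ) = 1
            omega
          obtain ⟨ε, hε, h3⟩ := bound_mid hC C hT hiJ
          rw [Fintype.card_fin] at h3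
          have h4 := arith_midB hj1 hnlt' (hedge 1 hi hiJ) hε h3
          subst h4
          obtain ⟨E, i1, i2, i3, σ, h1, N⟩ := hlast 2 rfl
          have h5 := bound_levi hC C hT hiJ N ha₀ h1
          rw [Fintype.card_fin] at h5
          omega
      · exact hnl i (by omega)
    have ho := hfirst hJ
    obtain ⟨ε, hε, h3⟩ := bound_first hC C hT (by omega) rfl ho
    rw [Fintype.card_fin] at h3
    rcases arith_firstA hl3 hj1 hnlt' (hedge _ (by simp only; omega) ho) hε h3 with ⟨-, hd2⟩ | ⟨h4, h5, h6⟩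
    · exact (hid hJ hd2).2
    · exfalso
      subst h4 h5
      have h7 := rank_minus hC hab hG (by norm_num) hA C hT (o := ⟨0, by omega⟩) rfl
        (fun i => ⟨fun hi => by
          by_contra h0
          refine hi (hJ i ?_)
          by_contra h1
          exact h0 (Fin.ext (by simp only; omega)), fun h0 => by rw [h0]; exact ho⟩) hKF h6
      rw [Fintype.card_fin] at h7
      omega
  · -- `|K| ^ 2 = |F| ^ j`, `j` odd
    obtain ⟨a₁, ha₁⟩ : ∃ a₁, (a₀ : ℕ) = 2 * a₁ := by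
      have h1 : Even ((a₀ : ℕ) * j) := by
        rw [haj, mul_comm]
        exact even_two_mul _
      rcases Nat.even_mul.1 h1 with ⟨x, hx⟩ | ⟨x, hx⟩
      · exact ⟨x, by omega⟩
      · omega
    have hf₁ : (f₀ : ℕ) = a₁ * j := by
      have h1 : 2 * (a₁ * j) = f₀ * 2 := by rw [← haj, ha₁]; ring
      omega
    have hgcd : j * Nat.gcd a₀ f₀ = f₀ := by
      have h1 : Nat.gcd 2 j = 1 := by
        rw [hj']
        exact (Nat.coprime_two_left).2 ⟨j', rfl⟩
      rw [ha₁, hf₁, mul_comm 2 a₁, Nat.gcd_mul_left, h1, mul_one, mul_comm]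
    have hedge : ∀ i : Fin l, (i : ℕ) + 1 < l → i ∉ JB (MM hab hG) p f φ →
        ∃ m, 2 ≤ m ∧ dB (MM hab hG) p f φ i = m ^ j := by
      intro i hi hiJ
      obtain ⟨σ, N⟩ := hlong i hi
      exact edge_pow_B' hC C hT hiJ N ha₀ hf₀ hgcd
    have hJ : ∀ i : Fin l, 1 ≤ (i : ℕ) → i ∈ JB (MM hab hG) p f φ := by
      intro i hi1
      by_cases hi : (i : ℕ) + 1 < l
      · by_contra hiJ
        rcases Nat.lt_or_ge 3 l with hl4 | hl3'
        · have h3 := bound_four hC C hT (by omega) hi1 hiJ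
          rw [Fintype.card_fin] at h3
          exact arith_midM hl3 hj hnlt (hedge i hi hiJ) h3
        · obtain rfl : l = 3 := by omega
          have hi' : (i : ℕ) = 1 := by omega
          have h3 := bound_all hC C hT hiJ
          rw [Fintype.card_fin, hi'] at h3
          exact arith_midM hl3 hj hnlt (hedge i hi hiJ) h3
      · exact hnl i (by omega)
    have ho := hfirst hJ
    obtain ⟨ε, hε, h3⟩ := bound_first hC C hT (by omega) rfl ho
    rw [Fintype.card_fin] at h3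
    obtain ⟨hj1, hd2⟩ := arith_firstM hl3 hj hnlt (hedge _ (by simp only; omega) ho) hε h3
    obtain ⟨⟨τ⟩, -⟩ := hid hJ hd2
    exfalso
    have h4 := Nat.card_congr τ.toEquiv
    rw [hj1, pow_one, ← h4] at hjK
    have h5 := Finite.one_lt_card (α := K)
    nlinarith

end row

end Cfsg.Agent.H2.Rb.C948
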