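import Cfsg.Agent.H2.Rb.Psu5
import Cfsg.Agent.H948.Ppd.TypeB

/-!
# S3691 (S), small primes: two pieces for `PSU(N, q₀)` (from helper69's file for S5948, adapted by helper2)

* **`le_psu`** : a row with `Soc P ≃ PSU(N, q₀)`, `|F| ^ j = q₀ ^ 2`, a Zsigmondy prime of `m` dividing `|Soc P|`:
  `k ≤ j (2 ((N - 1) / 2) + 1)`;
* **`seven_last`** : `SU(7, q₀)`, `|F| = q₀`, the last node outside `J`: `56 ≤ |ι|`.
-/

set_option autoImplicit false
set_option linter.unusedSectionVars false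

namespace Cfsg.Agent.H2.Rb.C69

open Cfsg.Agent.H2.Rb.C525
open Cfsg.Agent.H69.Ppd

open CoxeterSystem Cfsg.Agent.ChevalleyStructure.CoxeterGeom Cfsg.Agent.Tits.Roots Cfsg.Agent.Nodes.TypeC
open Cfsg.Agent.Nodes.Comb Cfsg.Agent.Nodes.Reps Cfsg.Agent.Nodes.WittRoot Cfsg.Agent.Nodes.BNOf
open Cfsg.Agent.Nodes.WittRGD Cfsg.Agent.Nodes.RGDLib Cfsg.Agent.Nodes.WittAll Cfsg.Agent.Nodes
open Cfsg.Agent.TitsThree Cfsg.Agent.TitsThree.Siegel Cfsg.Agent.TitsThree.WittFrame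
  Cfsg.Agent.TitsThree.WittWeyl Cfsg.Agent.TitsThree.FrameCN
open Cfsg.Agent.LieClassical.HermBasic Cfsg.Agent.LieClassical.HermSiegel Cfsg.Agent.LieClassical.HermGen
open Cfsg.Agent.TitsThree.KSideU Cfsg.Agent.TitsThree.KSideUDesc Cfsg.Agent.Nodes.WittU
  Cfsg.Agent.TitsThree.WBridge Cfsg.Agent.TitsThree.SiegelGen Cfsg.Agent.H61.SUCross
open Cfsg.Agent.Nodes.Bruhat Cfsg.Agent.Nodes.OppDec Cfsg.Agent.Nodes.LeviDec Cfsg.Agent.KFacts.RgdOpp
  Cfsg.Agent.Omega.CR Cfsg.Agent.Omega.FOne.Lift.Sd Cfsg.Agent.H911 Cfsg.Agent.H905.Md Cfsg.Agent.H156.Ppd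
open Cfsg Cfsg.Geo Cfsg.Agent.H67 Cfsg.Agent.KFacts.MulOdd.Inst
open Cfsg.Agent.H915.LD Cfsg.Agent.H2.Rb.C100 Cfsg.Agent.H906 Cfsg.Agent.H929.U3
open scoped MatrixGroups Matrix

universe u

/-- the primes dividing the order of `PSU(N, q)` -/
theorem dvd_of_card_psu {K : Type} [Field K] [Fintype K] {N q r : ℕ} (hN : 2 ≤ N)
    (hK : Fintype.card K = q ^ 2) (hr : r.Prime) (hrq : ¬ r ∣ q) (hd : r ∣ Nat.card (PSU N K q)) :
    ∃ e, 1 ≤ e ∧ e ≤ 2 * ((N - 1) / 2) + 1 ∧ r ∣ (q ^ 2) ^ e - 1 := by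
  classical
  have hq2 := two_le hK
  have h1 := S0280.result hK N hN
  have h2 : r ∣ q ^ (N * (N - 1) / 2) *
      ∏ i ∈ Finset.range N, (if Even i then q ^ (i + 1) + 1 else q ^ (i + 1) - 1) := by
    have h3 : r ∣ Nat.gcd N (q + 1) * ((q + 1) * Nat.card (PSU N K q)) := (hd.mul_left _).mul_left _
    rwa [h1] at h3
  have key : ∀ a, q ^ a + 1 ∣ (q ^ 2) ^ a - 1 := by
    intro a
    have h3 : 1 ≤ q ^ a := Nat.one_le_pow _ _ (by omega)
    obtain ⟨s, hs⟩ : ∃ s, q ^ a = s + 1 := ⟨q ^ a - 1, (Nat.sub_add_cancel h3).symm⟩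
    have h4 : (q ^ 2) ^ a = q ^ a * q ^ a := by rw [← pow_mul, mul_comm 2 a, pow_mul, sq]
    have h8 : (s + 1) * (s + 1) = (s + 1 + 1) * s + 1 := by ring
    rw [h4, hs, h8, Nat.add_sub_cancel]
    exact dvd_mul_right _ _
  rcases hr.dvd_mul.1 h2 with h | h
  · exact absurd (hr.dvd_of_dvd_pow h) hrq
  obtain ⟨i, hi, h3⟩ := (Prime.dvd_finset_prod_iff hr.prime _).1 h
  rw [Finset.mem_range] at hi
  by_cases he : Even i
  · rw [if_pos he] at h3
    obtain ⟨t, ht⟩ := he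
    exact ⟨i + 1, by omega, by omega, h3.trans (key (i + 1))⟩
  · rw [if_neg he] at h3
    rw [Nat.not_even_iff_odd] at he
    obtain ⟨t, ht⟩ := he
    refine ⟨t + 1, by omega, by omega, ?_⟩
    rw [← pow_mul]
    have h4 : 2 * (t + 1) = i + 1 := by omega
    rw [h4]
    exact h3

/-- **The degree of a row with socle `PSU(N, q₀)`.** -/
theorem le_psu {n k m : ℕ} {F : Type u} [Field F] [Finite F] {P : Subgroup (GL (Fin n) F)} (h : Row k m P)
    {K : Type} [Field K] [Fintype K] {N q₀ : ℕ} (hK : Fintype.card K = q₀ ^ 2) (hN : 3 ≤ N) {j : ℕ}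
    (hj : Nat.card F ^ j = q₀ ^ 2) (hg : ∃ r, r.Prime ∧ r ∣ m ∧ r ∣ Nat.card (Soc P))
    (e : Soc P ≃* PSU N K q₀) : k ≤ j * (2 * ((N - 1) / 2) + 1) := by
  have hq2 := two_le hK
  obtain ⟨r, hr, hrm, hrc⟩ := hg
  have hrq : ¬ r ∣ q₀ := by
    intro hd
    have h1 : r ∣ Nat.card F ^ j := by
      rw [hj]
      exact dvd_pow hd (by norm_num)
    exact h.num.not_dvd_q hr hrm (hr.dvd_of_dvd_pow h1)
  rw [Nat.card_congr e.toEquiv] at hrc
  obtain ⟨a, ha1, ha5, h1⟩ := dvd_of_card_psu (by omega) hK hr hrq hrc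
  have hj1 : 1 ≤ j := by
    by_contra hcon
    obtain rfl : j = 0 := by omega
    rw [pow_zero] at hj
    nlinarith
  have hk : k ∣ j * a := by
    rw [← h.num.pow_eq_one_iff hr hrm]
    have : Fact r.Prime := ⟨hr⟩
    have h2 : Nat.card F ^ (j * a) = (q₀ ^ 2) ^ a := by rw [pow_mul, hj]
    have h3 : 1 ≤ (q₀ ^ 2) ^ a := Nat.one_le_pow _ _ (by positivity)
    rw [← Nat.cast_pow, h2, ← sub_eq_zero, ← Nat.cast_one, ← Nat.cast_sub h3, ZMod.natCast_eq_zero_iff]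
    exact h1
  exact (Nat.le_of_dvd (by positivity) hk).trans (Nat.mul_le_mul_left j ha5)

section

variable {K : Type} [Field K] [Fintype K] {q : ℕ} {hK : Fintype.card K = q ^ 2} (h7 : 3 ≤ 7)
  (W : WFrame (PU hK 7) 3) {i : Fin 3}
  {Wg : Type*} [Group Wg] {cs : CoxeterSystem (CoxeterMatrix.B 3) Wg} {F : Type*} [Field F] [Finite F]
  {ι : Type} [Fintype ι] [DecidableEq ι] [Nonempty ι] {P : Subgroup (GL ι F)} {φ : SU 7 K q →* GL ι F}

/-- **`SU(7, q)` over `F`, `|F| = q`, the last node outside `J`.** -/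
theorem seven_last {p : ℕ} [hp : Fact p.Prime] [CharP F p] [CharP K p] (hW : Kind W)
    (hφ : φ.range = P) (hP : ActsAbsolutelyIrreducibly (matrixSet P))
    (hi : ¬ (i : ℕ) + 1 < 3) {d : Fin 7 → K} (hd : hermForm 7 K q d d = 1)
    (hV0 : W.V0 = Submodule.span K {d})
    (hJ : i ∉ Jx cs (isCartan 3) (WittModel.X (modelSU hK h7 W)) (lrep φ))
    (hj : Nat.card F ^ 2 = q ^ 2) : 56 ≤ Fintype.card ι := by
  have : Finite Wg := finite_W cs
  obtain ⟨p0, hp0, -⟩ := exists_adm hK W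
  have hA : AmbT (toFrame W) p (modelSU hK h7 W).I := AmbT.of_amb (amb_U hK W) p
  have R := rgdC_model (modelSU hK h7 W) hA hp0 cs
  have hG : GG cs (isCartan 3) (WittModel.T (modelSU hK h7 W)) (WittModel.X (modelSU hK h7 W)) = ⊤ :=
    gg_top (WittModel.G1_eq_top _ (by norm_num) _)
  have hT : ∀ s ∈ WittModel.T (modelSU hK h7 W), ∀ t ∈ WittModel.T (modelSU hK h7 W), s * t = t * s :=
    modelT_comm hA (kd_su hW)
  obtain ⟨w, hw0, hw1, -, -⟩ := exists_w R hG hT hφ hP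
  have hirr := lrep_irr (T := WittModel.T (modelSU hK h7 W)) (X := WittModel.X (modelSU hK h7 W))
    (h := isCartan 3) (cs := cs) hG hφ hP
  have hD1 : Module.finrank F (D cs (isCartan 3) (WittModel.X (modelSU hK h7 W)) (lrep φ)) = 1 := by
    rw [hw1]
    exact finrank_span_singleton hw0
  have h3 := Cfsg.Agent.H948.Ppd.TypeB.dim_ge_last R hirr (i := i) (by have := i.2; omega) hJ
  have h4 := (last_bound h7 W hW hφ hP hi hd hV0 hJ hj le_rfl).1
  have h5 := finrank_Io R hirr i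
  rw [Module.finrank_fintype_fun_eq_card, hD1] at h3
  rw [hD1] at h5
  omega

end

end Cfsg.Agent.H2.Rb.C69
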