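import Cfsg.Agent.H2.Rb.PsuAux
import Cfsg.Agent.H2.Rb.Psu6Aux

/-!
# S3691 (S), small primes: `PSU_N(q₀)`, `N ≥ 6`, in its own characteristic (from helper762's file for S5948, adapted by helper2)

**`nat_psu`** : `Row k m P`, `Soc P ≃ PSU_N(q₀)`, `N ≥ 6`, `char K = char F` imply `Nat' P`.
-/

set_option autoImplicit false
set_option linter.unusedSectionVars false

namespace Cfsg.Agent.H2.Rb.C762

open Cfsg.Agent.H2.Rb.C525
open Cfsg.Agent.H2.Rb.C69
open Cfsg.Agent.H762.Ppd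

open Cfsg Cfsg.Geo
open Cfsg.Agent.H915.LD
open Cfsg.Agent.H2.Rb.C100 (Row Num Nat')
open scoped MatrixGroups Matrix

universe u

variable {n : ℕ} {F : Type u} [Field F] [Finite F] {k m : ℕ} {P : Subgroup (GL (Fin n) F)}
  {K : Type} [Field K] [Fintype K] {N q₀ : ℕ} (p : ℕ) [hp : Fact p.Prime] [hFp : CharP F p] [hKp : CharP K p]
include hp hFp hKp

/-- **`PSU_N(q₀)`, `N ≥ 6`, in its own characteristic.** -/
theorem nat_psu (h : Row k m P) (hg : ∃ r, r.Prime ∧ r ∣ m ∧ r ∣ Nat.card (Soc P)) (hN : 6 ≤ N)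
    (hK : Fintype.card K = q₀ ^ 2) (e : Soc P ≃* PSU N K q₀) : Nat' P := by
  refine nat_psu_aux p h hN hK e (fun j _ hj => C69.le_psu h hK (by omega) hj hg e) ?_
  intro hN3 W d h7 hd hV0 φ₀ hφ₀ hj hJ
  subst h7
  have hne := h.core.nonempty
  have h1 := C69.seven_last hN3 W (Or.inr ⟨d, hd, hV0⟩) hφ₀ h.core.absIrred (i := 2) (by decide) hd hV0 hJ hj
  rwa [Fintype.card_fin] at h1

end Cfsg.Agent.H2.Rb.C762
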