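import Cfsg.Agent.H69.Ppd.SUFirst
import Cfsg.Agent.H69.Ppd.KerNum
import Cfsg.Agent.H2.Rb.LastU
import Cfsg.Agent.H69.Ppd.B2Dim

/-!
# S3691 (S), small primes: `PSU(5, q₀)` in the defining characteristic (from helper69's file for S5948, adapted by helper2)

* `su5_bound` : `φ : SU 5 K q → GL(ι, F)` with absolutely irreducible image, `|F| ^ j = q ^ 2`, `j ≥ 2`, `|ι| ≥ 2`:
  `10 j ≤ |ι|`;
* `core_five` : the same for a core of type `PSU(5, q₀)`;
* **`not_psu5`** : the row.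
-/

set_option autoImplicit false
set_option linter.unusedSectionVars false

namespace Cfsg.Agent.H2.Rb.C69

open Cfsg.Agent.H2.Rb.C525
open Cfsg.Agent.H69.Ppd

open CoxeterSystem Cfsg.Agent.ChevalleyStructure.CoxeterGeom Cfsg.Agent.Tits.Roots Cfsg.Agent.Nodes.TypeC
open Cfsg.Agent.Nodes.Comb Cfsg.Agent.Nodes.Reps Cfsg.Agent.Nodes.WittRoot Cfsg.Agent.Nodes.BNOf
open Cfsg.Agent.Nodes.WittRGD Cfsg.Agent.Nodes.RGDLib Cfsg.Agent.Nodes.WittAll Cfsg.Agent.Nodes
open Cfsg.Agent.TitsThree Cfsg.Agent.TitsThree.Siegel Cfsg.Agent.TitsThree.WittFrame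
  Cfsg.Agent.TitsThree.WittWeyl Cfsg.Agent.TitsThree.FrameCN
open Cfsg.Agent.LieClassical.HermBasic Cfsg.Agent.LieClassical.HermSiegel Cfsg.Agent.LieClassical.HermGen
open Cfsg.Agent.TitsThree.KSideU Cfsg.Agent.TitsThree.KSideUDesc Cfsg.Agent.Nodes.WittU
  Cfsg.Agent.TitsThree.WBridge Cfsg.Agent.TitsThree.SiegelGen Cfsg.Agent.H61.SUCross
open Cfsg.Agent.Nodes.Bruhat Cfsg.Agent.Nodes.OppDec Cfsg.Agent.Nodes.LeviDec Cfsg.Agent.KFacts.RgdOpp
  Cfsg.Agent.Omega.CR Cfsg.Agent.Omega.FOne.Lift.Sd Cfsg.Agent.H911 Cfsg.Agent.H905.Md Cfsg.Agent.H156.Ppd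
open Cfsg Cfsg.Geo Cfsg.Agent.H67 Cfsg.Agent.KFacts.MulOdd.Inst
open Cfsg.Agent.H915.LD Cfsg.Agent.H2.Rb.C100 Cfsg.Agent.H906 Cfsg.Agent.H929.U3
open scoped MatrixGroups Matrix

universe u

section

variable {K : Type} [Field K] [Fintype K] {q N : ℕ}

/-- the frame of the kernel -/
theorem isFr_of {hK : Fintype.card K = q ^ 2} (W : WFrame (PU hK N) 2) {d : Fin N → K}
    (hd : hermForm N K q d d = 1) (hV0 : W.V0 = Submodule.span K {d}) :
    IsFr q (fun x : Fin 2 × Bool => (toFrame W).b x) d where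
  bb x y := by
    have h1 := (toFrame W).hb x y
    change hermForm N K q _ _ = _ at h1
    rw [h1, HU_ε]
    obtain ⟨i, x⟩ := x
    obtain ⟨j, y⟩ := y
    cases x <;> cases y <;> simp [op, eq_comm]
  bd x := (toFrame W).h0 x d (by
    rw [toFrame_V0, hV0]
    exact Submodule.mem_span_singleton_self d)
  db x := (toFrame W).h0' x (by
    rw [toFrame_V0, hV0]
    exact Submodule.mem_span_singleton_self d)
  dd := hd

variable {F : Type u} [Field F] [Finite F] {ι : Type} [Fintype ι] [DecidableEq ι] {P : Subgroup (GL ι F)}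
  {φ : SU 5 K q →* GL ι F}

/-- **Absolutely irreducible representations of `SU(5, q)`, `|F| ^ j = q ^ 2`, `j ≥ 2`.** -/
theorem su5_bound {p : ℕ} [hp : Fact p.Prime] [CharP F p] [CharP K p] (hK : Fintype.card K = q ^ 2)
    (hφ : φ.range = P) (hP : ActsAbsolutelyIrreducibly (matrixSet P)) (h2 : 2 ≤ Fintype.card ι) {j : ℕ}
    (hj : Nat.card F ^ j = q ^ 2) (hj2 : 2 ≤ j) : 10 * j ≤ Fintype.card ι := by
  classical
  have hne : Nonempty ι := Fintype.card_pos_iff.1 (by omega)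
  obtain ⟨W, d, hd, hV0⟩ := exists_wframe_odd (N := 5) hK (m := 2) rfl
  have hW : Kind W := Or.inr ⟨d, hd, hV0⟩
  have : Finite (CoxeterMatrix.B 2).Group := finite_W (CoxeterMatrix.B 2).toCoxeterSystem
  obtain ⟨p0, hp0, -⟩ := exists_adm hK W
  have h5 : 3 ≤ 5 := by norm_num
  have hA : AmbT (toFrame W) p (modelSU hK h5 W).I := AmbT.of_amb (amb_U hK W) p
  have R := rgdC_model (modelSU hK h5 W) hA hp0 (CoxeterMatrix.B 2).toCoxeterSystem
  have hG : GG (CoxeterMatrix.B 2).toCoxeterSystem (isCartan 2) (WittModel.T (modelSU hK h5 W))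
      (WittModel.X (modelSU hK h5 W)) = ⊤ := gg_top (WittModel.G1_eq_top _ (by norm_num) _)
  have hT : ∀ s ∈ WittModel.T (modelSU hK h5 W), ∀ t ∈ WittModel.T (modelSU hK h5 W), s * t = t * s :=
    modelT_comm hA (kd_su hW)
  obtain ⟨w, hw0, hw1, -, -⟩ := exists_w R hG hT hφ hP
  have hirr := lrep_irr (T := WittModel.T (modelSU hK h5 W)) (X := WittModel.X (modelSU hK h5 W))
    (h := isCartan 2) (cs := (CoxeterMatrix.B 2).toCoxeterSystem) hG hφ hP
  have hD1 : Module.finrank F (D (CoxeterMatrix.B 2).toCoxeterSystem (isCartan 2)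
      (WittModel.X (modelSU hK h5 W)) (lrep φ)) = 1 := by
    rw [hw1]
    exact finrank_span_singleton hw0
  have hn : Module.finrank F (ι → F) = Fintype.card ι := Module.finrank_fintype_fun_eq_card F
  by_cases h1 : (1 : Fin 2) ∈ Jx (CoxeterMatrix.B 2).toCoxeterSystem (isCartan 2)
    (WittModel.X (modelSU hK h5 W)) (lrep φ)
  · -- the type of the natural module
    have h0 : (0 : Fin 2) ∉ Jx (CoxeterMatrix.B 2).toCoxeterSystem (isCartan 2)
        (WittModel.X (modelSU hK h5 W)) (lrep φ) := by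
      intro h0
      have h3 := D_eq_top R hirr (fun i => by
        fin_cases i
        · exact h0
        · exact h1)
      rw [h3, finrank_top, hn] at hD1
      omega
    have hJ : Jx (CoxeterMatrix.B 2).toCoxeterSystem (isCartan 2) (WittModel.X (modelSU hK h5 W)) (lrep φ) =
        {i | i ≠ 0} := by
      ext i
      fin_cases i
      · exact ⟨fun h => absurd h h0, fun h => absurd rfl h⟩
      · exact ⟨fun _ => by simp, fun _ => h1⟩
    obtain ⟨σ⟩ := Cfsg.Agent.H929.U3.exists_embed K (AlgebraicClosure F) p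
    obtain ⟨c', hc1, hc2, hc3⟩ := first_bound h5 W (p := p) (by norm_num) rfl hW hφ hP hJ (by rw [hj, hK]) σ
    have : Fintype F := Fintype.ofFinite F
    obtain ⟨s, -, hs⟩ := FiniteField.card F p
    have hcF : Nat.card F = p ^ (s : ℕ) := by rw [Nat.card_eq_fintype_card, hs]
    have hchar : CharP (AlgebraicClosure F) p := charP_of_injective_algebraMap (algebraMap F _).injective p
    rw [hcF] at hj hc2 hc3
    exact (ker_five hK (isFr_of W hd hV0) σ s.pos (by rw [hj, hK]) hc1 hc2 hj2).trans hc3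
  · have h3 := le_b2 R hirr h1 hD1
    obtain ⟨h4, h6⟩ := last_bound h5 W (i := 1) hW hφ hP (by norm_num) hd hV0 h1 hj hj2
    rw [hn] at h3
    by_cases hj3 : 3 ≤ j
    · have := h6 hj3
      omega
    · omega

/-- **cores of type `PSU(5, q)`** -/
theorem core_five (p : ℕ) [hp : Fact p.Prime] [CharP F p] [CharP K p] (hC : Core P)
    (hK : Fintype.card K = q ^ 2) (e : Soc P ≃* PSU 5 K q) :
    ∃ j, 1 ≤ j ∧ Nat.card F ^ j = q ^ 2 ∧ (2 ≤ j → 10 * j ≤ Fintype.card ι) := by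
  classical
  have hne := hC.nonempty
  have hp2 := hp.out.two_le
  have hq2 := two_le hK
  have : Fintype F := Fintype.ofFinite F
  obtain ⟨f, hq⟩ := Cfsg.Agent.H2.Rb.C525.exists_exp (p := p) hK
  have hcj := Cfsg.Agent.H929.U3.core_psu_cj p hC (by norm_num) hK (by omega) e
  obtain ⟨φ₀, h1, -, -⟩ := psu_cover p hC.perfect (by norm_num) hK (by omega) e
  obtain ⟨m, -, hm⟩ := FiniteField.card F p
  have h2f : H915.LD.Fr P (p ^ (2 * f)) := by
    rw [two_mul, pow_add, ← hq]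
    exact hcj.fr
  obtain ⟨N, hN⟩ : (m : ℕ) ∣ 2 * f := dvd_of_pow_eq hp2 hm (hC.pow_eq p h2f)
  have hN' : Nat.card F ^ N = q ^ 2 := by
    rw [Nat.card_eq_fintype_card, hm, hq, ← pow_mul, ← pow_mul, ← hN, mul_comm]
  refine ⟨N, ?_, hN', fun hN2 => su5_bound hK h1 hC.absIrred hC.two_le hN' hN2⟩
  by_contra hcon
  obtain rfl : N = 0 := by omega
  rw [pow_zero] at hN'
  nlinarith

end

/-- the primes dividing the order of `PSU(5, q)` -/
theorem dvd_of_card {K : Type} [Field K] [Fintype K] {q r : ℕ} (hK : Fintype.card K = q ^ 2) (hr : r.Prime)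
    (hrq : ¬ r ∣ q) (hd : r ∣ Nat.card (PSU 5 K q)) :
    ∃ e, 1 ≤ e ∧ e ≤ 5 ∧ r ∣ (q ^ 2) ^ e - 1 := by
  have hq2 := two_le hK
  have h1 := S0280.result hK 5 (by norm_num)
  simp only [Finset.prod_range_succ, Finset.prod_range_zero, one_mul] at h1
  have h2 : r ∣ q ^ (5 * (5 - 1) / 2) * ((q + 1) * (q ^ 2 - 1) * (q ^ 3 + 1) * (q ^ 4 - 1) * (q ^ 5 + 1)) := by
    have h3 : r ∣ Nat.gcd 5 (q + 1) * ((q + 1) * Nat.card (PSU 5 K q)) := (hd.mul_left _).mul_left _
    rw [h1] at h3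
    have h4 : Even 4 := by decide
    have h6 : ¬ Even 3 := by decide
    simpa [h4, h6] using h3
  -- `q ^ a + 1 ∣ (q ^ 2) ^ a - 1`
  have key : ∀ a, q ^ a + 1 ∣ (q ^ 2) ^ a - 1 := by
    intro a
    have h3 : 1 ≤ q ^ a := Nat.one_le_pow _ _ (by omega)
    obtain ⟨s, hs⟩ : ∃ s, q ^ a = s + 1 := ⟨q ^ a - 1, (Nat.sub_add_cancel h3).symm⟩
    have h4 : (q ^ 2) ^ a = q ^ a * q ^ a := by rw [← pow_mul, mul_comm 2 a, pow_mul, sq]
    have h8 : (s + 1) * (s + 1) = (s + 1 + 1) * s + 1 := by ring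
    rw [h4, hs, h8, Nat.add_sub_cancel]
    exact dvd_mul_right _ _
  rcases hr.dvd_mul.1 h2 with h | h
  · exact absurd (hr.dvd_of_dvd_pow h) hrq
  rcases hr.dvd_mul.1 h with h | h
  · rcases hr.dvd_mul.1 h with h | h
    · rcases hr.dvd_mul.1 h with h | h
      · rcases hr.dvd_mul.1 h with h | h
        · have := key 1
          rw [pow_one, pow_one] at this
          exact ⟨1, le_rfl, by norm_num, by rw [pow_one]; exact h.trans this⟩
        · exact ⟨1, le_rfl, by norm_num, by rw [pow_one]; exact h⟩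
      · exact ⟨3, by norm_num, by norm_num, h.trans (key 3)⟩
    · refine ⟨2, by norm_num, by norm_num, ?_⟩
      rw [← pow_mul]
      exact h
  · exact ⟨5, by norm_num, le_rfl, h.trans (key 5)⟩

/-- **The row `PSU(5, q₀)`, defining characteristic** -/
theorem not_psu5 {n k m : ℕ} {F : Type u} [Field F] [Finite F] {P : Subgroup (GL (Fin n) F)} (h : Row k m P)
    (hg : ∃ r, r.Prime ∧ r ∣ m ∧ r ∣ Nat.card (Soc P)) {p : ℕ} [hp : Fact p.Prime] [hFp : CharP F p] {K : Type}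
    [Field K] [Fintype K] [hKp : CharP K p] {q₀ : ℕ} (hK : Fintype.card K = q₀ ^ 2)
    (e : Soc P ≃* PSU 5 K q₀) : False := by
  have hq2 := two_le hK
  obtain ⟨N, hN1, hN, hb⟩ := core_five p h.core hK e
  rw [Fintype.card_fin] at hb
  obtain ⟨r, hr, hrm, hrc⟩ := hg
  have hten := h.num.ten
  have hlt := h.num.nlt
  have hrq : ¬ r ∣ q₀ := by
    intro hd
    have h1 : r ∣ Nat.card F ^ N := by
      rw [hN]
      exact dvd_pow hd (by norm_num)
    exact h.num.not_dvd_q hr hrm (hr.dvd_of_dvd_pow h1)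
  rw [Nat.card_congr e.toEquiv] at hrc
  obtain ⟨a, ha1, ha5, h1⟩ := dvd_of_card hK hr hrq hrc
  have hk : k ∣ N * a := by
    rw [← h.num.pow_eq_one_iff hr hrm]
    have : Fact r.Prime := ⟨hr⟩
    have h2 : Nat.card F ^ (N * a) = (q₀ ^ 2) ^ a := by rw [pow_mul, hN]
    have h3 : 1 ≤ (q₀ ^ 2) ^ a := Nat.one_le_pow _ _ (by positivity)
    rw [← Nat.cast_pow, h2, ← sub_eq_zero, ← Nat.cast_one, ← Nat.cast_sub h3, ZMod.natCast_eq_zero_iff]
    exact h1
  have hk3 := Nat.le_of_dvd (by positivity) hk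
  have hk5 : N * a ≤ N * 5 := Nat.mul_le_mul_left N ha5
  by_cases hN2 : 2 ≤ N
  · have := hb hN2
    omega
  · omega

end Cfsg.Agent.H2.Rb.C69
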