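import Cfsg.Agent.H2.Rb.Basic
import Cfsg.Agent.H251.GeoCardB
import Cfsg.Agent.H907.MxJ
import Cfsg.Agent.H922.OddDecomp

/-!
# S3691 (S): the geometric subgroups containing `g`, part 1 (adapted by helper2 from helper100's `H100.Ppd.StructA`)

`g ∈ GL_n(q)` of order `m`, `Num q n k m`: a decomposition preserved by `g` consists of lines, `g` preserves no tensor
decomposition and no tensor power decomposition. `card_le_of_decomp` : the order of a monomial group.
-/

set_option autoImplicit false
set_option linter.unusedSectionVars false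

namespace Cfsg.Agent.H2.Rb.C100

open Cfsg Cfsg.Geo Matrix
open Cfsg.Agent.H915.LD
open Cfsg.Agent.H251.GeoCard

universe u v w

/-- `r` does not divide `q ^ i - 1` for `i < k` -/
theorem Num.not_div {q n k m : ℕ} (h : Num q n k m) {r : ℕ} (hr : r.Prime) (hrm : r ∣ m) {d : ℕ} (hd : d < k) :
    ¬ Div r q d := by
  rintro ⟨i, h1, h2, h3⟩
  have h4 := h.cop i h1 (by omega)
  have h5 := Nat.dvd_gcd hrm h3
  rw [Nat.Coprime] at h4
  rw [h4] at h5
  exact hr.one_lt.ne' (Nat.dvd_one.1 h5)

theorem dvd_card_of_mem {G : Type*} [Group G] {H : Subgroup G} {g : G} (hg : g ∈ H) {r : ℕ}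
    (hr : r ∣ orderOf g) : r ∣ Nat.card H := by
  refine hr.trans ?_
  rw [← Subgroup.orderOf_mk g hg]
  exact orderOf_dvd_natCard _

/-! ### orders of permutations -/

theorem exists_of_dvd_lcm {r : ℕ} (hr : r.Prime) (s : Multiset ℕ) (h : r ∣ s.lcm) : ∃ c ∈ s, r ∣ c := by
  induction s using Multiset.induction_on with
  | empty =>
    rw [Multiset.lcm_zero, Nat.dvd_one] at h
    exact absurd h hr.one_lt.ne'
  | cons a s ih =>
    rw [Multiset.lcm_cons] at h
    have h1 : r ∣ a * s.lcm := h.trans (Nat.lcm_dvd_mul a s.lcm)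
    rcases hr.dvd_mul.1 h1 with h2 | h2
    · exact ⟨a, Multiset.mem_cons_self _ _, h2⟩
    · obtain ⟨c, hc, hc'⟩ := ih h2
      exact ⟨c, Multiset.mem_cons_of_mem hc, hc'⟩

/-- two different primes dividing the order of a permutation -/
theorem add_le_of_dvd_orderOf {n : ℕ} (σ : Equiv.Perm (Fin n)) {r s : ℕ} (hr : r.Prime) (hs : s.Prime) (hrs : r ≠ s)
    (h1 : r ∣ orderOf σ) (h2 : s ∣ orderOf σ) : r + s ≤ n := by
  rw [← Equiv.Perm.lcm_cycleType] at h1 h2
  obtain ⟨c, hc, hrc⟩ := exists_of_dvd_lcm hr _ h1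
  obtain ⟨d, hd, hsd⟩ := exists_of_dvd_lcm hs _ h2
  have hsum := σ.sum_cycleType
  have hle : σ.support.card ≤ n := by
    have := Finset.card_le_univ σ.support
    rwa [Fintype.card_fin] at this
  have hc0 : 0 < c := by
    have := Equiv.Perm.two_le_of_mem_cycleType hc
    omega
  have hd0 : 0 < d := by
    have := Equiv.Perm.two_le_of_mem_cycleType hd
    omega
  by_cases hcd : c = d
  · subst hcd
    have h3 : r * s ∣ c := Nat.Coprime.mul_dvd_of_dvd_of_dvd ((Nat.coprime_primes hr hs).2 hrs) hrc hsd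
    have h4 := Nat.le_of_dvd hc0 h3
    have h5 : c ≤ σ.cycleType.sum := Multiset.single_le_sum (fun _ _ => Nat.zero_le _) _ hc
    have h6 : r + s ≤ r * s := by
      have := hr.two_le
      have := hs.two_le
      nlinarith
    omega
  · have h3 : ({c, d} : Multiset ℕ) ≤ σ.cycleType := by
      rw [Multiset.insert_eq_cons, Multiset.le_iff_count]
      intro a
      have hc1 := Multiset.one_le_count_iff_mem.2 hc
      have hd1 := Multiset.one_le_count_iff_mem.2 hd
      by_cases ha : a = c
      · subst ha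
        rw [Multiset.count_cons_self, Multiset.count_singleton, if_neg hcd]
        omega
      · rw [Multiset.count_cons_of_ne ha, Multiset.count_singleton]
        split_ifs with h
        · subst h; exact hd1
        · exact Nat.zero_le _
    have h4 : ({c, d} : Multiset ℕ).sum ≤ σ.cycleType.sum := by
      obtain ⟨u, hu⟩ := Multiset.le_iff_exists_add.1 h3
      rw [hu, Multiset.sum_add]
      omega
    have h5 : ({c, d} : Multiset ℕ).sum = c + d := by simp
    have h6 := Nat.le_of_dvd hc0 hrc
    have h7 := Nat.le_of_dvd hd0 hsd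
    omega

theorem not_sq_dvd_factorial {n r : ℕ} (hr : r.Prime) (hn : n < 2 * r) : ¬ r ^ 2 ∣ n.factorial := by
  intro h
  have hb : Nat.log r n < 2 ∨ 2 ≤ Nat.log r n := by omega
  have h2 : n < r ^ 2 := by
    have := hr.two_le
    nlinarith
  have h1 := (hr.pow_dvd_factorial_iff (b := 2) (n := n) (r := 2) (Nat.log_lt_of_lt_pow' (by norm_num) h2)).1 h
  have h3 : ∑ i ∈ Finset.Ico 1 2, n / r ^ i = n / r := by simp
  rw [h3] at h1
  have h4 : n / r < 2 := by
    rw [Nat.div_lt_iff_lt_mul hr.pos]
    exact hn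
  omega

section

variable {n : ℕ} {F : Type u} [Field F] [Finite F] {k m : ℕ}

/-- **(C2)** -/
theorem Num.eq_one_of_decomp (h : Num (Nat.card F) n k m) {g : GL (Fin n) F} (hg : orderOf g = m) {t d : ℕ}
    {D : Fin t → Submodule F (Fin n → F)} (hD : IsMDecomposition d D) (hgD : g ∈ decompositionStabilizer D) :
    d = 1 := by
  have := Fintype.ofFinite F
  have htd : t * d = n := by
    have := H922.mul_eq_card hD
    rwa [Fintype.card_fin] at this
  have ht := hD.two_le
  have hd := hD.pos
  obtain ⟨ψ, hψ⟩ := H907.Mx.exists_permHom hD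
  -- the kernel of `ψ` has order prime to `m`
  have hker : ∀ r, r.Prime → r ∣ m → d < k → ∀ x : decompositionStabilizer D, ψ x = 1 → x ^ r = 1 → x = 1 := by
    intro r hr hrm hdk x hx hxr
    by_contra hne
    have hs : ¬ r ∣ Nat.card F := h.not_dvd_q hr hrm
    -- the decomposition is fixed blockwise
    have hfix : ∀ i, (D i).map (Matrix.toLin' ((x : GL (Fin n) F) : Matrix (Fin n) (Fin n) F)) = D i := by
      intro i
      rw [hψ x i, hx]
      rfl
    have hmap : ∀ i, ∀ y ∈ D i, Matrix.toLin' ((x : GL (Fin n) F) : Matrix (Fin n) (Fin n) F) y ∈ D i := by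
      intro i y hy
      have := Submodule.mem_map_of_mem (f := Matrix.toLin' ((x : GL (Fin n) F) : Matrix (Fin n) (Fin n) F)) hy
      rwa [hfix i] at this
    have hxr' : (x : GL (Fin n) F) ^ r = 1 := by
      rw [← Subgroup.coe_pow, hxr]; rfl
    have hres : ∀ i, ∀ y ∈ D i, Matrix.toLin' ((x : GL (Fin n) F) : Matrix (Fin n) (Fin n) F) y = y := by
      intro i
      by_contra hcon
      push Not at hcon
      obtain ⟨y, hy, hne⟩ := hcon
      let f : D i →ₗ[F] D i := (Matrix.toLin' ((x : GL (Fin n) F) : Matrix (Fin n) (Fin n) F)).restrict (hmap i)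
      have hf : f ^ r = 1 := by
        have h1 : ∀ (j : ℕ) (y : D i), (((f ^ j) y : D i) : Fin n → F) =
            ((Matrix.toLin' ((x : GL (Fin n) F) : Matrix (Fin n) (Fin n) F)) ^ j) (y : Fin n → F) := by
          intro j
          induction j with
          | zero => intro y; rfl
          | succ j ih =>
            intro y
            rw [pow_succ, pow_succ, Module.End.mul_apply, Module.End.mul_apply, ih]
            rfl
        apply LinearMap.ext
        intro y
        apply Subtype.ext
        rw [h1, ← Cfsg.Agent.H251.GeoCard.toLin_pow, hxr', Units.val_one, Matrix.toLin'_one]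
        rfl
      have hf1 : f ≠ 1 := by
        intro h1
        apply hne
        have h2 := LinearMap.congr_fun h1 ⟨y, hy⟩
        exact congrArg Subtype.val h2
      have h1 := exists_of_lin hr hs f hf hf1
      rw [hD.finrank_eq i] at h1
      exact h.not_div hr hrm hdk h1
    apply hne
    apply Subtype.ext
    apply Units.ext
    apply Matrix.toLin'.injective
    apply LinearMap.ext
    intro y
    have h1 : (⨆ i, D i) ≤ LinearMap.eqLocus (Matrix.toLin' ((x : GL (Fin n) F) : Matrix (Fin n) (Fin n) F))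
        LinearMap.id := by
      rw [iSup_le_iff]
      intro i x hx
      rw [LinearMap.mem_eqLocus]
      exact hres i x hx
    rw [hD.iSup_eq_top] at h1
    have h2 := h1 (Submodule.mem_top (x := y))
    rw [LinearMap.mem_eqLocus] at h2
    rw [h2]
    simp
  have hdk : d < k := by
    have := h.nlt
    nlinarith
  -- the order of `ψ g` is `m`
  set G : decompositionStabilizer D := ⟨g, hgD⟩ with hG
  have hGm : orderOf G = m := by rw [← hg, hG, Subgroup.orderOf_mk]
  have hord : m ∣ orderOf (ψ G) := by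
    set o := orderOf (ψ G) with ho
    have ho' : o ∣ m := by rw [ho, ← hGm]; exact orderOf_map_dvd ψ G
    by_contra hcon
    -- a prime dividing `m / o`
    obtain ⟨c, hc⟩ := ho'
    have hc1 : c ≠ 1 := by
      rintro rfl
      apply hcon
      rw [hc, mul_one]
    obtain ⟨r, hr, hrc⟩ := Nat.exists_prime_and_dvd hc1
    obtain ⟨c', rfl⟩ := hrc
    have hm0 : m ≠ 0 := h.m_ne
    have ho0 : 0 < o * c' := by
      apply Nat.pos_of_ne_zero
      intro h0
      apply hm0
      rw [hc]
      calc o * (r * c') = r * (o * c') := by ring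
        _ = 0 := by rw [h0, mul_zero]
    have h1 : ψ (G ^ (o * c')) = 1 := by
      rw [map_pow, pow_mul, ho, pow_orderOf_eq_one, one_pow]
    have h2 : (G ^ (o * c')) ^ r = 1 := by
      rw [← pow_mul]
      have : o * c' * r = m := by rw [hc]; ring
      rw [this, ← hGm, pow_orderOf_eq_one]
    have hrm : r ∣ m := by rw [hc]; exact ⟨o * c', by ring⟩
    have h3 := hker r hr hrm hdk _ h1 h2
    have h4 := orderOf_dvd_of_pow_eq_one h3
    rw [hGm] at h4
    have h5 := Nat.le_of_dvd ho0 h4
    have h6 : o * c' * r = m := by rw [hc]; ring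
    have := hr.two_le
    nlinarith
  -- compare `t` with the primes
  by_contra hd1
  · obtain ⟨r, hr, hrm⟩ := h.exists_prime
    have h2 : r ∣ Nat.card (Equiv.Perm (Fin t)) := (hrm.trans hord).trans (orderOf_dvd_natCard _)
    rw [Nat.card_eq_fintype_card, Fintype.card_perm, Fintype.card_fin, hr.dvd_factorial] at h2
    have h3 := h.le_two_mul hr hrm
    have h4 : 2 ≤ d := by omega
    nlinarith

/-- the order of the stabiliser of a decomposition into lines -/
theorem card_le_of_decomp {t : ℕ} {D : Fin t → Submodule F (Fin n → F)} (hD : IsMDecomposition 1 D) :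
    Nat.card (decompositionStabilizer D) ≤ (Nat.card F - 1) ^ n * n.factorial := by
  classical
  have := Fintype.ofFinite F
  have htn : t = n := by
    have := H922.mul_eq_card hD
    rwa [Fintype.card_fin, mul_one] at this
  subst htn
  obtain ⟨ψ, hψ⟩ := H907.Mx.exists_permHom hD
  have hv : ∀ i, ∃ v ∈ D i, v ≠ 0 ∧ ∀ w ∈ D i, ∃ c : F, c • v = w := by
    intro i
    obtain ⟨v, hv0, hv⟩ := finrank_eq_one_iff'.1 (hD.finrank_eq i)
    refine ⟨v, v.2, fun h0 => hv0 (Subtype.ext h0), fun w hw => ?_⟩
    obtain ⟨c, hc⟩ := hv ⟨w, hw⟩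
    exact ⟨c, congrArg Subtype.val hc⟩
  choose v hvm hv0 hv using hv
  have hc : ∀ (x : decompositionStabilizer D) (i : Fin t), ∃ c : Fˣ,
      Matrix.toLin' ((x : GL (Fin t) F) : Matrix (Fin t) (Fin t) F) (v i) = (c : F) • v (ψ x i) := by
    intro x i
    have h1 : Matrix.toLin' ((x : GL (Fin t) F) : Matrix (Fin t) (Fin t) F) (v i) ∈ D (ψ x i) := by
      rw [← hψ x i]
      exact Submodule.mem_map_of_mem (hvm i)
    obtain ⟨c, hc⟩ := hv _ _ h1
    have hc0 : c ≠ 0 := by
      rintro rfl
      rw [zero_smul, Matrix.toLin'_apply] at hc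
      apply hv0 i
      have h2 : ((x : GL (Fin t) F)⁻¹ : GL (Fin t) F).1 *ᵥ (((x : GL (Fin t) F) : Matrix (Fin t) (Fin t) F) *ᵥ v i) = v i := by
        rw [Matrix.mulVec_mulVec, Units.inv_mul, Matrix.one_mulVec]
      rw [← h2, ← hc, Matrix.mulVec_zero]
    exact ⟨Units.mk0 c hc0, hc.symm⟩
  choose c hc using hc
  have hinj : Function.Injective (fun x : decompositionStabilizer D => ((c x, ψ x) : (Fin t → Fˣ) × Equiv.Perm (Fin t))) := by
    intro x y hxy
    have h1 : c x = c y := congrArg Prod.fst hxy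
    have h2 : ψ x = ψ y := congrArg Prod.snd hxy
    apply Subtype.ext
    apply Units.ext
    apply Matrix.toLin'.injective
    have h3 : (⨆ i, D i) ≤ LinearMap.eqLocus (Matrix.toLin' ((x : GL (Fin t) F) : Matrix (Fin t) (Fin t) F))
        (Matrix.toLin' ((y : GL (Fin t) F) : Matrix (Fin t) (Fin t) F)) := by
      rw [iSup_le_iff]
      intro i w hw
      rw [LinearMap.mem_eqLocus]
      obtain ⟨a, rfl⟩ := hv i w hw
      rw [map_smul, map_smul, hc, hc, h1, h2]
    rw [hD.iSup_eq_top] at h3
    apply LinearMap.ext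
    intro w
    have h4 := h3 (Submodule.mem_top (x := w))
    rwa [LinearMap.mem_eqLocus] at h4
  refine (Nat.card_le_card_of_injective _ hinj).trans ?_
  rw [Nat.card_prod, Nat.card_fun, Nat.card_units, Nat.card_eq_fintype_card (α := Equiv.Perm (Fin t)),
    Fintype.card_perm, Fintype.card_fin, Nat.card_eq_fintype_card (α := Fin t), Fintype.card_fin]

/-- **(C4)** -/
theorem Num.kill_tensor (h : Num (Nat.card F) n k m) {g : GL (Fin n) F} (hg : orderOf g = m) {n₁ n₂ : ℕ}
    (e : Fin n ≃ Fin n₁ × Fin n₂) (Q : GL (Fin n) F) (h1 : 2 ≤ n₁) (h2 : 2 ≤ n₂)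
    (hgD : g ∈ tensorProductSubgroup n₁ n₂ e Q) : False := by
  have hn : n = n₁ * n₂ := by
    have := Fintype.card_congr e
    rwa [Fintype.card_fin, Fintype.card_prod, Fintype.card_fin, Fintype.card_fin] at this
  have := Fintype.ofFinite F
  obtain ⟨r, hr, hrm⟩ := h.exists_prime
  have h3 := tensor e Q hr (h.not_dvd_q hr hrm) (dvd_card_of_mem hgD (by rwa [hg]))
  refine h.not_div hr hrm ?_ h3
  have := h.nlt
  rw [max_lt_iff]
  constructor <;> nlinarith

/-- **(C7)** -/
theorem Num.kill_wreath (h : Num (Nat.card F) n k m) {g : GL (Fin n) F} (hg : orderOf g = m) {d t : ℕ}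
    (e : Fin n ≃ (Fin t → Fin d)) (Q : GL (Fin n) F) (h1 : 2 ≤ d) (h2 : 2 ≤ t)
    (hgD : g ∈ tensorWreathSubgroup d t e Q) : False := by
  have hn : n = d ^ t := by
    have := Fintype.card_congr e
    rwa [Fintype.card_fin, Fintype.card_fun, Fintype.card_fin, Fintype.card_fin] at this
  have := Fintype.ofFinite F
  obtain ⟨r, hr, hrm⟩ := h.exists_prime
  rcases wreath e Q hr (h.not_dvd_q hr hrm) (dvd_card_of_mem hgD (by rwa [hg])) with h3 | h3
  · have h4 := h.le_two_mul hr hrm
    have h5 : t < 2 ^ t := Nat.lt_two_pow_self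
    have h6 : 2 ^ t ≤ d ^ t := Nat.pow_le_pow_left h1 t
    have h7 : t * 2 ≤ 2 ^ t := by
      obtain ⟨s, rfl⟩ : ∃ s, t = s + 1 := ⟨t - 1, by omega⟩
      have : s < 2 ^ s := Nat.lt_two_pow_self
      rw [pow_succ]
      omega
    omega
  · refine h.not_div hr hrm ?_ h3
    have := h.nlt
    have h4 : d * d ≤ d ^ t := by
      rw [← pow_two]
      exact Nat.pow_le_pow_right (by omega) h2
    nlinarith

end

end Cfsg.Agent.H2.Rb.C100
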