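import Cfsg.Agent.H2.Rb.StructA
import Cfsg.Agent.H920.SympC
import Cfsg.Agent.H920.CsNorm

/-!
# S3691 (S): the geometric subgroups containing `g`, part 2 (adapted by helper2 from helper100's `H100.Ppd.StructB`)

* `Num.dvd_of_field` : if `g` normalises a field of matrices of prime degree `s` then `s ∣ gcd n k` or `s = n = m`;
* `card_normalizer_le` : the order of the normaliser in the case `s = n`;
* `Num.kill_coord` : `g` normalises no group of symplectic type.
-/

set_option autoImplicit false
set_option linter.unusedSectionVars false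

namespace Cfsg.Agent.H2.Rb.C100

open Cfsg Cfsg.Geo Matrix
open Cfsg.Agent.H915.LD
open Cfsg.Agent.H251.GeoCard

universe u v w

section field

variable {ι : Type} [Fintype ι] [DecidableEq ι] {F : Type u} [Field F] [Fintype F]

theorem dvd_card_of_field {r : ℕ} {K : Subalgebra F (Matrix ι ι F)} (hK : IsFieldSubalgebra r K) [Nonempty ι] :
    r ∣ Fintype.card ι := by
  let _ : Field K := (H912.isField_of_fieldSub hK).toField
  have hfd : Module.Finite F K := inferInstance
  have h1 := Module.finrank_mul_finrank F K (ι → F)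
  rw [hK.finrank_eq, Module.finrank_fintype_fun_eq_card] at h1
  exact ⟨_, h1.symm⟩

/-- an element `g` of prime order `s` commuting with the field -/
theorem div_of_commutes [Nonempty ι] {r s : ℕ} (hr : r.Prime) {K : Subalgebra F (Matrix ι ι F)}
    (hK : IsFieldSubalgebra r K) (hs : s.Prime) (hF : ¬ s ∣ Nat.card F) {g : GL ι F} (hgs : g ^ s = 1) (hgne : g ≠ 1)
    (hcomm' : ∀ x ∈ K, (g : Matrix ι ι F) * x = x * (g : Matrix ι ι F)) :
    Div s (Nat.card F ^ r) (Fintype.card ι / r) := by
  classical
  have hfin : Finite (GL ι F) := inferInstance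
  have := Fact.mk hs
  let _ : Field K := (H912.isField_of_fieldSub hK).toField
  have hfd : Module.Finite F K := inferInstance
  have hKfin : Finite K := Module.finite_of_finite F
  have hcomm : ∀ x : K, (g : Matrix ι ι F) * x = x * (g : Matrix ι ι F) := fun x => hcomm' x x.2
  have h1 := Module.finrank_mul_finrank F K (ι → F)
  rw [hK.finrank_eq, Module.finrank_fintype_fun_eq_card] at h1
  have hrank : Module.finrank K (ι → F) = Fintype.card ι / r := by
    rw [← h1, Nat.mul_div_cancel_left _ hr.pos]
  let f : (ι → F) →ₗ[K] (ι → F) :=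
    { toFun := fun v => (g : Matrix ι ι F) *ᵥ v
      map_add' := fun u v => Matrix.mulVec_add _ _ _
      map_smul' := fun x v => by
        change (g : Matrix ι ι F) *ᵥ ((x : Matrix ι ι F) *ᵥ v) =
          (x : Matrix ι ι F) *ᵥ ((g : Matrix ι ι F) *ᵥ v)
        rw [Matrix.mulVec_mulVec, Matrix.mulVec_mulVec, hcomm] }
  have hfk : ∀ (k : ℕ) (v : ι → F), (f ^ k) v = ((g ^ k : GL ι F) : Matrix ι ι F) *ᵥ v := by
    intro k
    induction k with
    | zero => intro v; simp
    | succ k ih =>
      intro v
      rw [pow_succ, Module.End.mul_apply, ih, pow_succ, Units.val_mul, ← Matrix.mulVec_mulVec]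
      rfl
  have hfs : f ^ s = 1 := by
    apply LinearMap.ext
    intro v
    rw [hfk, hgs]
    simp
  have hf1 : f ≠ 1 := by
    intro hf1
    apply hgne
    apply Units.ext
    apply Matrix.toLin'.injective
    apply LinearMap.ext
    intro v
    have h2 := LinearMap.congr_fun hf1 v
    rw [Matrix.toLin'_apply, Units.val_one, Matrix.toLin'_one]
    exact h2
  have hcardK : Nat.card K = Nat.card F ^ r := by
    have h2 := Module.natCard_eq_pow_finrank (K := F) (V := K)
    rwa [hK.finrank_eq] at h2
  have hKs : ¬ s ∣ Nat.card K := by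
    rw [hcardK]
    exact fun h2 => hF (hs.dvd_of_dvd_pow h2)
  have hVfin : Module.Finite K (ι → F) := Module.Finite.of_restrictScalars_finite F K (ι → F)
  have h2 := exists_of_lin hs hKs f hfs hf1
  rwa [hcardK, hrank] at h2

/-- the action on the field has order dividing `r` -/
theorem pow_commutes [Nonempty ι] {r : ℕ} (hr : r.Prime) {K : Subalgebra F (Matrix ι ι F)}
    (hK : IsFieldSubalgebra r K) {g : GL ι F} (hg : g ∈ subalgebraNormalizer K) :
    ∀ x ∈ K, ((g ^ r : GL ι F) : Matrix ι ι F) * x = x * ((g ^ r : GL ι F) : Matrix ι ι F) := by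
  classical
  have hN : H912.NormAlg (subalgebraNormalizer K) K := fun _ hh a ha => (hh a).mp ha
  let _ : Field K := (H912.isField_of_fieldSub hK).toField
  have hfd : Module.Finite F K := inferInstance
  have hKfin : Finite K := Module.finite_of_finite F
  have hgal : IsGalois F K := inferInstance
  set G : subalgebraNormalizer K := ⟨g, hg⟩ with hG
  let σ : K ≃ₐ[F] K := H912.conjSub hN G
  have hσk : ∀ (k : ℕ) (x : K), (((σ ^ k) x : K) : Matrix ι ι F) =
      ((g ^ k : GL ι F) : Matrix ι ι F) * x * (((g ^ k)⁻¹ : GL ι F) : Matrix ι ι F) := by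
    intro k
    induction k with
    | zero => intro x; simp
    | succ k ih =>
      intro x
      rw [pow_succ, AlgEquiv.mul_apply, ih, H912.conjSub_coe, pow_succ, _root_.mul_inv_rev, Units.val_mul,
        Units.val_mul]
      simp only [Matrix.mul_assoc, hG]
  have hσr : σ ^ r = 1 := by
    have h3 : Nat.card (K ≃ₐ[F] K) = r := by
      rw [IsGalois.card_aut_eq_finrank, hK.finrank_eq]
    rw [← h3]
    exact pow_card_eq_one'
  intro x hx
  have h1 := hσk r ⟨x, hx⟩
  rw [hσr] at h1
  have h2 : x = ((g ^ r : GL ι F) : Matrix ι ι F) * x * (((g ^ r)⁻¹ : GL ι F) : Matrix ι ι F) := h1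
  conv_rhs => rw [h2]
  rw [Matrix.mul_assoc, ← Units.val_mul, inv_mul_cancel, Units.val_one, Matrix.mul_one]

/-- the normaliser of a field of matrices of the full degree -/
theorem card_normalizer_le [Nonempty ι] {K : Subalgebra F (Matrix ι ι F)}
    (hK : IsFieldSubalgebra (Fintype.card ι) K) :
    Nat.card (subalgebraNormalizer K) ≤ Fintype.card ι * Nat.card F ^ Fintype.card ι := by
  classical
  have hN : H912.NormAlg (subalgebraNormalizer K) K := fun _ hh a ha => (hh a).mp ha
  let _ : Field K := (H912.isField_of_fieldSub hK).toField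
  have hfd : Module.Finite F K := inferInstance
  have hKfin : Finite K := Module.finite_of_finite F
  have hgal : IsGalois F K := inferInstance
  have hne : Nontrivial (ι → F) := inferInstance
  obtain ⟨v, hv⟩ := exists_ne (0 : ι → F)
  let ev : K →ₗ[F] (ι → F) :=
    { toFun := fun a => (a : Matrix ι ι F) *ᵥ v
      map_add' := fun a b => Matrix.add_mulVec _ _ _
      map_smul' := fun c a => by
        change (c • (a : Matrix ι ι F)) *ᵥ v = c • ((a : Matrix ι ι F) *ᵥ v)
        rw [Matrix.smul_mulVec] }
  have hev : Function.Injective ev := by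
    rw [← LinearMap.ker_eq_bot, LinearMap.ker_eq_bot']
    intro a ha
    by_contra ha0
    apply hv
    have h1 : (a⁻¹ * a : K) = 1 := inv_mul_cancel₀ ha0
    have h2 : ((a⁻¹ : K) : Matrix ι ι F) * (a : Matrix ι ι F) = 1 := by
      rw [← Subalgebra.coe_mul, h1, Subalgebra.coe_one]
    have h3 : (a : Matrix ι ι F) *ᵥ v = 0 := ha
    rw [← Matrix.one_mulVec v, ← h2, ← Matrix.mulVec_mulVec, h3, Matrix.mulVec_zero]
  have hev' : Function.Surjective ev := by
    refine (LinearMap.injective_iff_surjective_of_finrank_eq_finrank ?_).1 hev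
    rw [hK.finrank_eq, Module.finrank_fintype_fun_eq_card]
  have hinj : Function.Injective (fun x : subalgebraNormalizer K =>
      ((H912.conjSub hN x, (((x : GL ι F) : Matrix ι ι F)) *ᵥ v) : (K ≃ₐ[F] K) × (ι → F))) := by
    intro x y hxy
    have h1 : H912.conjSub hN x = H912.conjSub hN y := congrArg Prod.fst hxy
    have h2 : ((x : GL ι F) : Matrix ι ι F) *ᵥ v = ((y : GL ι F) : Matrix ι ι F) *ᵥ v := congrArg Prod.snd hxy
    have h3 : ∀ (z : subalgebraNormalizer K) (a : K), ((z : GL ι F) : Matrix ι ι F) *ᵥ ((a : Matrix ι ι F) *ᵥ v) =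
        ((H912.conjSub hN z a : K) : Matrix ι ι F) *ᵥ (((z : GL ι F) : Matrix ι ι F) *ᵥ v) := by
      intro z a
      rw [H912.conjSub_coe, Matrix.mulVec_mulVec, Matrix.mulVec_mulVec, Matrix.mul_assoc, ← Units.val_mul,
        inv_mul_cancel, Units.val_one, Matrix.mul_one]
    apply Subtype.ext
    apply Units.ext
    apply Matrix.toLin'.injective
    apply LinearMap.ext
    intro w
    obtain ⟨a, rfl⟩ := hev' w
    rw [Matrix.toLin'_apply, Matrix.toLin'_apply]
    change ((x : GL ι F) : Matrix ι ι F) *ᵥ ((a : Matrix ι ι F) *ᵥ v) =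
      ((y : GL ι F) : Matrix ι ι F) *ᵥ ((a : Matrix ι ι F) *ᵥ v)
    rw [h3, h3, h1, h2]
  have hfin1 : Finite (K ≃ₐ[F] K) := inferInstance
  refine (Nat.card_le_card_of_injective _ hinj).trans ?_
  rw [Nat.card_prod, IsGalois.card_aut_eq_finrank, hK.finrank_eq, Nat.card_fun, Nat.card_eq_fintype_card (α := ι)]

end field

section

variable {n : ℕ} {F : Type u} [Field F] [Finite F] {k m : ℕ}

theorem Num.dvd_of_div {q n k m : ℕ} (h : Num q n k m) {r : ℕ} (hr : r.Prime) (hrm : r ∣ m) {s d : ℕ}
    (hs : s.Prime) (hd : d < k) (hdiv : Div r (q ^ s) d) : s ∣ k := by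
  obtain ⟨i, h1, h2, h3⟩ := hdiv
  have : Fact r.Prime := ⟨hr⟩
  have h4 : ((q : ZMod r)) ^ (s * i) = 1 := by
    rw [pow_mul]
    have h5 : 1 ≤ (q ^ s) ^ i := Nat.one_le_pow _ _ (Nat.pow_pos (by have := h.one_lt_q; omega))
    have h6 : (((q ^ s) ^ i - 1 : ℕ) : ZMod r) = 0 := (ZMod.natCast_eq_zero_iff _ _).2 h3
    rw [Nat.cast_sub h5, Nat.cast_pow, Nat.cast_pow, Nat.cast_one, sub_eq_zero] at h6
    exact h6
  rw [h.pow_eq_one_iff hr hrm] at h4
  by_contra hcon
  have h5 : Nat.Coprime k s := ((Nat.Prime.coprime_iff_not_dvd hs).2 hcon).symm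
  have h6 := Nat.le_of_dvd (by omega) (h5.dvd_of_dvd_mul_left h4)
  omega

/-- **(C3)** -/
theorem Num.dvd_of_field (h : Num (Nat.card F) n k m) {g : GL (Fin n) F} (hg : orderOf g = m) {s : ℕ}
    (hs : s.Prime) {K : Subalgebra F (Matrix (Fin n) (Fin n) F)} (hK : IsFieldSubalgebra s K)
    (hgK : g ∈ subalgebraNormalizer K) : s ∣ Nat.gcd n k ∨ (s = n ∧ m = n) := by
  have := Fintype.ofFinite F
  have hn : Nonempty (Fin n) := ⟨⟨0, by have := h.ten; omega⟩⟩
  have hsn : s ∣ n := by
    have := dvd_card_of_field hK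
    rwa [Fintype.card_fin] at this
  have hn0 : 0 < n := by have := h.ten; omega
  have hdk : n / s < k := by
    have h1 := h.nlt
    have h2 : n / s ≤ n / 2 := Nat.div_le_div_left hs.two_le (by norm_num)
    omega
  have hm := h.prime
  by_cases hms : m = s
  · right
    subst hms
    have h1 := h.le_two_mul hm dvd_rfl
    obtain ⟨c, hc⟩ := hsn
    have h2 : c < 2 := by
      by_contra hcon
      have : 2 * m ≤ c * m := Nat.mul_le_mul_right m (by omega)
      rw [hc, mul_comm m c] at h1
      omega
    have h3 : c ≠ 0 := by rintro rfl; omega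
    have h4 : c = 1 := by omega
    have h5 : m = n := by rw [hc, h4, mul_one]
    exact ⟨h5, h5⟩
  · left
    refine Nat.dvd_gcd hsn ?_
    have h1 := extension hs hK hm (h.not_dvd_q hm dvd_rfl) (dvd_card_of_mem hgK (by rw [hg]))
    rw [Fintype.card_fin] at h1
    rcases h1 with h1 | h1
    · exact absurd h1 hms
    · exact h.dvd_of_div hm dvd_rfl hs hdk h1

theorem Num.kill_coord (h : Num (Nat.card F) n k m) {g : GL (Fin n) F} (hg : orderOf g = m) {s c : ℕ}
    {R : Subgroup (GL (Fin n) F)} (hs : s.Prime) (hc : 1 ≤ c) (hR : IsPGroup s R) (hn : n = s ^ c)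
    (hsF : s ∣ Nat.card F - 1)
    (habs : ActsAbsolutelyIrreducibly (matrixSet R)) (C : H920.Coord R s c)
    (hgR : g ∈ subgroupNormalizer R) : False := by
  classical
  have hfin : Finite (GL (Fin n) F) := inferInstance
  have hn1 : Nonempty (Fin n) := ⟨⟨0, by have := h.ten; omega⟩⟩
  have hsFact := Fact.mk hs
  have hFt := Fintype.ofFinite F
  -- primes dividing `m` do not divide `s (q - 1)`
  have hcop : ∀ r, r.Prime → r ∣ m → ¬ r ∣ Nat.card F - 1 := by
    intro r hr hrm hd
    exact h.not_div hr hrm (d := 1) (by have := h.six_le; omega) ⟨1, le_rfl, le_rfl, by rwa [pow_one]⟩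
  have hrs : ∀ r, r.Prime → r ∣ m → ¬ r ∣ s := by
    intro r hr hrm hd
    exact hcop r hr hrm (hd.trans hsF)
  obtain ⟨A, hA, hind⟩ := C.exists_ind_of_mem hgR
  -- the order of `A`
  have hAm : A ^ m = 1 := by
    have h1 := hind.pow m
    rw [← hg, pow_orderOf_eq_one] at h1
    rw [← hg]
    exact h1.unique (H920.Coord.Ind.one C)
  set A' : Matrix.symplecticGroup (Fin c) (ZMod s) := ⟨A, hA⟩ with hA'
  have hA'm : A' ^ m = 1 := Subtype.ext hAm
  have hord : m ∣ orderOf A' := by
    set o := orderOf A' with ho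
    have ho' : o ∣ m := orderOf_dvd_of_pow_eq_one hA'm
    by_contra hcon
    obtain ⟨c₁, hc₁⟩ := ho'
    have hc1 : c₁ ≠ 1 := by
      rintro rfl
      apply hcon
      rw [hc₁, mul_one]
    obtain ⟨r, hr, hrc⟩ := Nat.exists_prime_and_dvd hc1
    obtain ⟨c', rfl⟩ := hrc
    have hm0 : m ≠ 0 := h.m_ne
    have hrm : r ∣ m := by rw [hc₁]; exact ⟨o * c', by ring⟩
    have ho0 : 0 < o * c' := by
      apply Nat.pos_of_ne_zero
      intro h0
      apply hm0
      rw [hc₁]
      calc o * (r * c') = r * (o * c') := by ring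
        _ = 0 := by rw [h0, mul_zero]
    have h1 : A ^ (o * c') = 1 := by
      have h2 : A' ^ (o * c') = 1 := by rw [pow_mul, ho, pow_orderOf_eq_one, one_pow]
      exact congrArg Subtype.val h2
    have h2 := hind.pow (o * c')
    rw [h1] at h2
    obtain ⟨x, hx⟩ := C.mem_of_ind_one habs h2
    have h3 : g ^ (o * c') ∈ (R ⊔ scalars (Fin n) F : Subgroup (GL (Fin n) F)) := by
      have h4 := Subgroup.mul_mem_sup x.2 hx
      rwa [mul_inv_cancel_left] at h4
    have hord' : orderOf (g ^ (o * c')) = r := by
      apply orderOf_eq_of_pow_and_pow_div_prime (n := r) hr.pos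
      · rw [← pow_mul]
        have : o * c' * r = m := by rw [hc₁]; ring
        rw [this, ← hg, pow_orderOf_eq_one]
      · intro p hp hpr
        obtain rfl := (Nat.prime_dvd_prime_iff_eq hp hr).1 hpr
        rw [Nat.div_self hp.pos, pow_one]
        intro h4
        have h5 := Nat.le_of_dvd ho0 (orderOf_dvd_of_pow_eq_one h4)
        rw [hg, hc₁] at h5
        have h6 := hp.two_le
        nlinarith
    have h4 : r ∣ Nat.card (R ⊔ scalars (Fin n) F : Subgroup (GL (Fin n) F)) := by
      rw [← hord', ← Subgroup.orderOf_mk (g ^ (o * c')) h3]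
      exact orderOf_dvd_natCard _
    rcases hr.dvd_mul.1 (h4.trans (card_sup_dvd _ _ fun z hz g => scalars_central hz g)) with h5 | h5
    · obtain ⟨a, ha⟩ := (IsPGroup.iff_card).1 hR
      rw [ha] at h5
      exact hrs r hr hrm (hr.dvd_of_dvd_pow h5)
    · exact hcop r hr hrm (h5.trans card_scalars_dvd)
  have hcard : m ∣ s ^ (c ^ 2) * ∏ i ∈ Finset.range c, (s ^ (2 * (i + 1)) - 1) := by
    have h1 := hord.trans (orderOf_dvd_natCard A')
    rwa [LieClassical.SympCount.card_symplecticGroup, ZMod.card] at h1
  -- the possible primes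
  have hprime : ∀ r, r.Prime → r ∣ m → r = n + 1 ∧ k = n ∨ r = n - 1 ∧ k = n - 2 := by
    intro r hr hrm
    have hle := h.le_two_mul hr hrm
    have hten := h.ten
    rcases hr.dvd_mul.1 (hrm.trans hcard) with h3 | h3
    · exact absurd (hr.dvd_of_dvd_pow h3) (hrs r hr hrm)
    · obtain ⟨i, hi, h4⟩ := (Prime.dvd_finset_prod_iff hr.prime _).1 h3
      have hik : i + 1 ≤ c := by
        have := Finset.mem_range.1 hi
        omega
      have h5 : s ^ (2 * (i + 1)) - 1 = (s ^ (i + 1) + 1) * (s ^ (i + 1) - 1) := by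
        rw [mul_comm 2, pow_mul, ← Nat.sq_sub_sq, one_pow]
      have hle' : s ^ (i + 1) ≤ s ^ c := Nat.pow_le_pow_right hs.pos hik
      have h1r : 1 < s ^ (i + 1) := Nat.one_lt_pow (by omega) hs.one_lt
      rw [← hn] at hle'
      have hi' : s ^ (i + 1) = n ∨ s ^ (i + 1) * 2 ≤ n := by
        rcases Nat.lt_or_ge (i + 1) c with h6 | h6
        · right
          calc s ^ (i + 1) * 2 ≤ s ^ (i + 1) * s := Nat.mul_le_mul_left _ hs.two_le
            _ = s ^ (i + 2) := by rw [pow_succ s (i + 1)]
            _ ≤ s ^ c := Nat.pow_le_pow_right hs.pos h6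
            _ = n := hn.symm
        · left
          rw [hn]
          congr 1
          omega
      have hk := h.dvd_sub_one hr hrm
      have hnk := h.nlt
      have hkn := h.kle
      rw [h5] at h4
      rcases hr.dvd_mul.1 h4 with h6 | h6
      · have h7 := Nat.le_of_dvd (by omega) h6
        left
        rcases hi' with h8 | h8
        · rw [h8] at h6
          have h9 : r = n + 1 := by
            obtain ⟨e, he⟩ := h6
            have h10 : e < 2 := by
              by_contra hcon
              have h8 : 2 * r ≤ e * r := Nat.mul_le_mul_right r (by omega)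
              rw [mul_comm r e] at he
              omega
            have h11 : e ≠ 0 := by rintro rfl; omega
            have h12 : e = 1 := by omega
            rw [h12, mul_one] at he
            omega
          refine ⟨h9, ?_⟩
          rw [h9, Nat.add_sub_cancel] at hk
          obtain ⟨e, he⟩ := hk
          have h10 : e < 2 := by
            by_contra hcon
            have h8 : 2 * k ≤ e * k := Nat.mul_le_mul_right k (by omega)
            rw [mul_comm k e] at he
            omega
          have h11 : e ≠ 0 := by rintro rfl; omega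
          have h12 : e = 1 := by omega
          rw [h12, mul_one] at he
          omega
        · omega
      · have h7 := Nat.le_of_dvd (by omega) h6
        right
        rcases hi' with h8 | h8
        · rw [h8] at h6
          have h9 : r = n - 1 := by
            obtain ⟨e, he⟩ := h6
            have h10 : e < 2 := by
              by_contra hcon
              have h8 : 2 * r ≤ e * r := Nat.mul_le_mul_right r (by omega)
              rw [mul_comm r e] at he
              omega
            have h11 : e ≠ 0 := by rintro rfl; omega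
            have h12 : e = 1 := by omega
            rw [h12, mul_one] at he
            omega
          refine ⟨h9, ?_⟩
          have h13 : r - 1 = n - 2 := by omega
          rw [h13] at hk
          obtain ⟨e, he⟩ := hk
          have h10 : e < 2 := by
            by_contra hcon
            have h8 : 2 * k ≤ e * k := Nat.mul_le_mul_right k (by omega)
            rw [mul_comm k e] at he
            omega
          have h11 : e ≠ 0 := by rintro rfl; omega
          have h12 : e = 1 := by omega
          rw [h12, mul_one] at he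
          omega
        · omega
  have hten := h.ten
  have hmm := hprime m h.prime dvd_rfl
  rcases h.bad with h1 | ⟨h1, h2⟩ | ⟨h1, h2⟩ | ⟨-, h2⟩
  · rw [h1] at hsF
    exact hs.one_lt.ne' (Nat.dvd_one.1 hsF)
  · rw [h1] at hsF
    have h3 : s = 2 := (Nat.prime_dvd_prime_iff_eq hs Nat.prime_two).1 hsF
    subst h3
    have h4 : n = 18 ∨ n = 20 := by omega
    rcases Nat.lt_or_ge c 5 with h5 | h5
    · interval_cases c <;> omega
    · have h6 : 2 ^ 5 ≤ 2 ^ c := Nat.pow_le_pow_right (by norm_num) h5
      omega
  · rw [h1] at hsF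
    have h3 : s = 3 := (Nat.prime_dvd_prime_iff_eq hs Nat.prime_three).1 hsF
    subst h3
    have h4 : n = 11 := by omega
    rcases Nat.lt_or_ge c 3 with h5 | h5
    · interval_cases c <;> omega
    · have h6 : 3 ^ 3 ≤ 3 ^ c := Nat.pow_le_pow_right (by norm_num) h5
      omega
  · omega

end

end Cfsg.Agent.H2.Rb.C100
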