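import Cfsg.Agent.H2.Rb.StructB
import Cfsg.Agent.H920.CsData
import Cfsg.Agent.H917.LinSplit
import Cfsg.Agent.H919.AschSplit
import Cfsg.Agent.H914.Sub2

/-!
# S3691 (S): the reduction to a core (adapted by helper2 from helper100's `H100.Ppd.StructC`)

* `Num.kill_sympType` : class C6;
* `struct` : a field of matrices normalised by `H`, or a row `Row k m P` with `P ⊴ H`, or `H` is small;
* `card_le_of_row` : `|H| ≤ (q - 1) ^ n |Aut (Soc P)|`.
-/

set_option autoImplicit false
set_option linter.unusedSectionVars false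

namespace Cfsg.Agent.H2.Rb.C100

open Cfsg Cfsg.Geo Matrix
open Cfsg.Agent.H915.LD
open Cfsg.Agent.H251.GeoCard

universe u v w

variable {n k m : ℕ} {F : Type u} [Field F] [Finite F]

/-- **Class C6**. -/
theorem Num.kill_sympType (h : Num (Nat.card F) n k m) {g : GL (Fin n) F} (hg : orderOf g = m) {s c : ℕ}
    {R : Subgroup (GL (Fin n) F)} (habs : ActsAbsolutelyIrreducibly (matrixSet R))
    (hst : IsSymplecticTypeGroup s R) (hc : 1 ≤ c) (hn : Fintype.card (Fin n) = s ^ c)
    (hcases : (Odd s ∧ Nat.card (Subgroup.center R) = s ∧ Nat.card R = s ^ (1 + 2 * c)) ∨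
       (s = 2 ∧ Nat.card (Subgroup.center R) = 4 ∧ Nat.card R = 2 ^ (2 + 2 * c)) ∨
       (s = 2 ∧ Nat.card (Subgroup.center R) = 2 ∧ Nat.card R = 2 ^ (1 + 2 * c)))
    (hcomm : ∀ x ∈ R, ∀ y ∈ R, x * y * x⁻¹ * y⁻¹ ∈ scalars (Fin n) F)
    (hgR : g ∈ subgroupNormalizer R) : False := by
  classical
  have hne : Nonempty (Fin n) := ⟨⟨0, by have := h.ten; omega⟩⟩
  have hpow : ∀ x ∈ R, x ^ s ∈ scalars (Fin n) F := by
    rcases hcases with h1 | h1 | ⟨h1, h2, -⟩
    · exact H920.pow_of_type hst habs (Or.inl h1)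
    · exact H920.pow_of_type hst habs (Or.inr h1)
    · intro x hx
      have h3 : (⟨x, hx⟩ : R) ^ s ∈ Subgroup.center R := by
        rw [Subgroup.mem_center_iff]
        intro y
        set X : R := ⟨x, hx⟩ with hX
        have h4 : y * X * y⁻¹ * X⁻¹ ∈ Subgroup.center R :=
          H920.mem_center_of_mem_scalars habs (hcomm y y.2 x hx)
        set z : R := y * X * y⁻¹ * X⁻¹ with hz
        have h5 : z ^ 2 = 1 := by
          have h6 : (⟨z, h4⟩ : Subgroup.center R) ^ Nat.card (Subgroup.center R) = 1 := pow_card_eq_one'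
          rw [h2] at h6
          exact congrArg Subtype.val h6
        have h6 : y * X * y⁻¹ = z * X := by rw [hz]; group
        have h7 : (y * X * y⁻¹) ^ 2 = X ^ 2 := by
          rw [h6, (Subgroup.mem_center_iff.1 h4 X : X * z = z * X).symm, (show Commute X z from
            Subgroup.mem_center_iff.1 h4 X).mul_pow, h5, mul_one]
        rw [conj_pow] at h7
        rw [h1]
        calc y * X ^ 2 = (y * X ^ 2 * y⁻¹) * y := by group
          _ = X ^ 2 * y := by rw [h7]
      exact H920.mem_scalars_of_mem_center habs h3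
  obtain ⟨C⟩ := H920.exists_coord habs hcomm hst.prime hc hpow hn
  have hsF : s ∣ Nat.card F - 1 := by
    have h1 : s ∣ Nat.card (Subgroup.center R) := by
      rcases hcases with h1 | h1 | h1
      · rw [h1.2.1]
      · rw [h1.2.1, h1.1]; decide
      · rw [h1.2.1, h1.1]
    have hsF' : Fact s.Prime := ⟨hst.prime⟩
    obtain ⟨z, hz⟩ := exists_prime_orderOf_dvd_card' s h1
    have h2 : orderOf ((z : R) : GL (Fin n) F) = s := by
      rw [Subgroup.orderOf_coe, Subgroup.orderOf_coe, hz]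
    obtain ⟨u, hu⟩ := (Cfsg.Geo.mem_scalars_iff _).1 (H920.mem_scalars_of_mem_center habs z.2)
    have hpw : ∀ i : ℕ, ((((z : R) : GL (Fin n) F) ^ i : GL (Fin n) F) : Matrix (Fin n) (Fin n) F) =
        ((u ^ i : Fˣ) : F) • (1 : Matrix (Fin n) (Fin n) F) := by
      intro i
      rw [Units.val_pow_eq_pow_val, hu, smul_pow, one_pow, Units.val_pow_eq_pow_val]
    have hone : ∀ i : ℕ, ((z : R) : GL (Fin n) F) ^ i = 1 ↔ u ^ i = 1 := by
      intro i
      constructor
      · intro h3
        have h4 := hpw i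
        rw [h3] at h4
        have h5 := congrFun (congrFun h4 hne.some) hne.some
        rw [Units.val_one, Matrix.smul_apply, Matrix.one_apply_eq, smul_eq_mul, mul_one] at h5
        exact Units.ext h5.symm
      · intro h3
        apply Units.ext
        rw [hpw, h3, Units.val_one, one_smul, Units.val_one]
    have h3 : orderOf u = s := by
      rw [← h2]
      exact orderOf_eq_orderOf_iff.2 fun i => (hone i).symm
    rw [← h3, ← Nat.card_units]
    exact orderOf_dvd_natCard u
  rw [Fintype.card_fin] at hn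
  exact h.kill_coord hg hst.prime hc hst.pGroup hn hsF habs C hgR

/-- a number -/
theorem two_pow_le (n : ℕ) : 2 ^ n ≤ (n + 1).factorial := by
  induction n with
  | zero => norm_num
  | succ n ih =>
    rw [pow_succ, mul_comm, Nat.factorial_succ (n + 1)]
    exact Nat.mul_le_mul (by omega) ih

/-- the orders of the small groups -/
theorem le_bound {q : ℕ} (hq : 2 ≤ q) (n : ℕ) : n * q ^ n ≤ (q - 1) ^ n * (n + 4).factorial := by
  have h1 : q ^ n ≤ (2 * (q - 1)) ^ n := Nat.pow_le_pow_left (by omega) n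
  have h2 : n * 2 ^ n ≤ (n + 4).factorial := by
    calc n * 2 ^ n ≤ (n + 1 + 1) * (n + 1).factorial := Nat.mul_le_mul (by omega) (two_pow_le n)
      _ = (n + 1 + 1).factorial := (Nat.factorial_succ _).symm
      _ ≤ (n + 4).factorial := Nat.factorial_le (by omega)
  calc n * q ^ n ≤ n * (2 * (q - 1)) ^ n := Nat.mul_le_mul_left n h1
    _ = (q - 1) ^ n * (n * 2 ^ n) := by rw [mul_pow]; ring
    _ ≤ (q - 1) ^ n * (n + 4).factorial := Nat.mul_le_mul_left _ h2

/-- **Part (A)** : the structural alternatives, or a row. -/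
theorem struct' (h : Num (Nat.card F) n k m) {g : GL (Fin n) F} (hg : orderOf g = m)
    (H : Subgroup (GL (Fin n) F)) (hgH : g ∈ H) (hirr : ActsIrreducibly (matrixSet H)) :
    (∃ (r : ℕ) (E : Subalgebra F (Matrix (Fin n) (Fin n) F)), r.Prime ∧ r ∣ Nat.gcd n k ∧
      IsFieldSubalgebra r E ∧ H ≤ subalgebraNormalizer E) ∨
    (∃ P : Subgroup (GL (Fin n) F), P ≤ H ∧ (∀ x ∈ H, ∀ y ∈ P, x * y * x⁻¹ ∈ P) ∧ Row k m P) ∨
    (∃ (t : ℕ) (D : Fin t → Submodule F (Fin n → F)), IsMDecomposition 1 D ∧ H ≤ decompositionStabilizer D) ∨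
    (m = n ∧ Nat.card H ≤ (Nat.card F - 1) ^ n * (n + 4).factorial) := by
  have hten := h.ten
  have hF := Fintype.ofFinite F
  have hne : Nonempty (Fin n) := ⟨⟨0, by omega⟩⟩
  rcases H917.lin_split (by rw [Fintype.card_fin]; omega) H with ⟨W, hW0, hW1, hHW⟩ | ⟨t, d, D, hD, hHD⟩ |
      ⟨r, K, hr, hK, hHK⟩ | ⟨n₁, n₂, e, P, h1, h2, hHP⟩ | ⟨-, hspan⟩
  · exfalso
    rcases hirr W (by
      rintro _ ⟨x, hx, rfl⟩
      rintro _ ⟨v, hv, rfl⟩
      exact (hHW hx v).1 hv) with h1 | h1
    · exact hW0 h1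
    · exact hW1 h1
  · right
    right
    left
    obtain rfl := h.eq_one_of_decomp hg hD (hHD hgH)
    exact ⟨t, D, hD, hHD⟩
  · rcases h.dvd_of_field hg hr hK (hHK hgH) with h1 | ⟨h1, hmn⟩
    · exact Or.inl ⟨r, K, hr, h1, hK, hHK⟩
    · right
      right
      right
      subst h1
      have h2 : IsFieldSubalgebra (Fintype.card (Fin r)) K := by rwa [Fintype.card_fin]
      have h3 := card_normalizer_le h2
      rw [Fintype.card_fin] at h3
      exact ⟨hmn, (Subgroup.card_le_of_le hHK).trans (h3.trans (le_bound h.one_lt_q r))⟩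
  · exact (h.kill_tensor hg e P h1 h2 (hHP hgH)).elim
  rcases H919.C_split H hirr (by rw [Fintype.card_fin]; omega) hspan with
    ⟨N, hNH, hN, hNs, hNc⟩ | ⟨d, t, e, P, E, hW⟩ | ⟨P, hP⟩
  · obtain ⟨s, c, R, hRN, hR, hHR, habs, htype, hchar, hc, hcardR, hcen, hord⟩ :=
      H920.exists_symplecticType hspan hNH hN hNs hNc
    exact (h.kill_sympType hg habs htype hc hcardR hord (fun x hx y hy => hNc x (hRN hx) y (hRN hy))
      (hHR hgH)).elim
  · exact (h.kill_wreath hg e P hW.two_le_m hW.two_le_t (hW.wreath hgH)).elim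
  · by_cases hreal : ∃ F₀ : Subfield F, F₀ ≠ ⊤ ∧ RealisableOver F₀ (matrixSet P)
    · exfalso
      obtain ⟨F₀, hF₀, hreal⟩ := hreal
      obtain ⟨F₁, r, B, -, -, hr, hcard, -, hle⟩ :=
        H914.exists_le_subfieldSubgroup hP.normal hP.absIrred hF₀ hreal
      rcases subfield h.prime (h.not_dvd_q h.prime dvd_rfl) (dvd_card_of_mem (hle hgH) (by rw [hg])) with h1 | h1
      · have h2 := h.coprime_sub_one
        rw [Nat.Prime.coprime_iff_not_dvd h.prime] at h2
        exact h2 h1
      · obtain ⟨i, hi1, hi2, hi3⟩ := h1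
        rw [Fintype.card_fin] at hi2
        have h2 := h.nlt
        have h3 : 2 * k ≤ r * k := Nat.mul_le_mul_right k hr.two_le
        have h4 := h.prim (Nat.card F₁) r i hr.one_lt.le hcard.symm hi1 (by omega)
        rw [Nat.Prime.coprime_iff_not_dvd h.prime] at h4
        exact h4 hi3
    · push Not at hreal
      exact Or.inr (Or.inl ⟨P, hP.le, fun x hx => hP.normal x hx, core_of_residual (hP.isResidualCore hreal), h, g, hg,
        fun x hx => hP.normal g hgH x hx⟩)

/-- **Part (A)** : the structural alternatives, or a row. -/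
theorem struct (h : Num (Nat.card F) n k m) {g : GL (Fin n) F} (hg : orderOf g = m)
    (H : Subgroup (GL (Fin n) F)) (hgH : g ∈ H) (hirr : ActsIrreducibly (matrixSet H)) :
    (∃ (r : ℕ) (E : Subalgebra F (Matrix (Fin n) (Fin n) F)), r.Prime ∧ r ∣ Nat.gcd n k ∧
      IsFieldSubalgebra r E ∧ H ≤ subalgebraNormalizer E) ∨
    (∃ P : Subgroup (GL (Fin n) F), P ≤ H ∧ (∀ x ∈ H, ∀ y ∈ P, x * y * x⁻¹ ∈ P) ∧ Row k m P) ∨
    Nat.card H ≤ (Nat.card F - 1) ^ n * (n + 4).factorial := by
  have hF := Fintype.ofFinite F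
  rcases struct' h hg H hgH hirr with h1 | h1 | ⟨t, D, hD, hHD⟩ | ⟨-, h1⟩
  · exact Or.inl h1
  · exact Or.inr (Or.inl h1)
  · refine Or.inr (Or.inr ((Subgroup.card_le_of_le hHD).trans ((card_le_of_decomp hD).trans ?_)))
    exact Nat.mul_le_mul_left _ (Nat.factorial_le (by omega))
  · exact Or.inr (Or.inr h1)

/-- the order of a group normalising a core -/
theorem card_le_of_row' {P H : Subgroup (GL (Fin n) F)} (h : Row k m P) (hH : ∀ x ∈ H, ∀ y ∈ P, x * y * x⁻¹ ∈ P)
    {N : ℕ} (hN : Nat.card (MulAut (Soc P)) ≤ N) : Nat.card H ≤ (Nat.card F - 1) * N := by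
  have hC := h.core
  have hF := Fintype.ofFinite F
  have hN : H ≤ Subgroup.normalizer (P : Set (GL (Fin n) F)) := fun g hg => mem_normalizer (hH g hg)
  let f : H →* MulAut (Soc P) := (conjSoc hC.absIrred).comp (Subgroup.inclusion hN)
  have hfin : Finite (MulAut (Soc P)) := inferInstance
  have h1 : Nat.card f.ker ≤ Nat.card F - 1 := by
    have h2 : Nat.card f.ker ≤ Nat.card (scalars (Fin n) F) := by
      refine Nat.card_le_card_of_injective (fun x : f.ker => (⟨((x : H) : GL (Fin n) F),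
        scalar_of_conjSoc hC (g := Subgroup.inclusion hN x) x.2⟩ : scalars (Fin n) F)) ?_
      intro x y hxy
      exact Subtype.ext (Subtype.ext (congrArg (fun z : scalars (Fin n) F => (z : GL (Fin n) F)) hxy))
    have h3 : 1 < Nat.card F := Finite.one_lt_card
    exact h2.trans (Nat.le_of_dvd (by omega) card_scalars_dvd)
  have h2 : Nat.card H = Nat.card f.ker * Nat.card f.range := by
    rw [← Subgroup.index_ker, mul_comm]
    exact (Subgroup.index_mul_card _).symm
  have h3 : Nat.card f.range ≤ N := (Subgroup.card_le_card_group _).trans ‹Nat.card (MulAut (Soc P)) ≤ N›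
  rw [h2]
  exact Nat.mul_le_mul h1 h3

theorem card_le_of_row {P H : Subgroup (GL (Fin n) F)} (h : Row k m P) (hH : ∀ x ∈ H, ∀ y ∈ P, x * y * x⁻¹ ∈ P)
    {N : ℕ} (hN : Nat.card (MulAut (Soc P)) ≤ N) : Nat.card H ≤ (Nat.card F - 1) ^ n * N := by
  have hten := h.num.ten
  exact (card_le_of_row' h hH hN).trans (Nat.mul_le_mul_right _ (Nat.le_self_pow (by omega) _))

end Cfsg.Agent.H2.Rb.C100
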